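import Mathlib

/-!
A symmetric relation invariant under a transitive group of odd order, in which two unrelated points with a
common neighbour have the same neighbours, has a triangle as soon as it has an edge.
-/

set_option autoImplicit false

namespace Cfsg.Agent.H35.OddPush

/-- The triangle. -/
theorem exists_triangle {A : Type*} [Group A] {ι : Type*} [MulAction A ι] [Finite A] (hA : Odd (Nat.card A))
    (R : ι → ι → Prop) (hsymm : ∀ {u v}, R u v → R v u) (hinv : ∀ (a : A) {u v}, R u v → R (a • u) (a • v))
    (htrans : ∀ u v : ι, ∃ a : A, a • u = v)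
    (htwin : ∀ {u v w}, ¬ R u v → R u w → R v w → ∀ {x}, R u x → R v x)
    {u₀ v₀ : ι} (hedge : R u₀ v₀) : ∃ u v w, R u v ∧ R v w ∧ R u w := by
  by_contra hno
  -- ends of a path of length two are unrelated, so they have the same neighbours
  have hsame : ∀ {u v w}, R u v → R w v → ∀ {x}, R u x → R w x := fun {u v w} h1 h2 =>
    htwin (fun h3 => hno ⟨u, w, v, h3, h2, h1⟩) h1 h2
  obtain ⟨a, ha⟩ := htrans u₀ v₀
  have key : ∀ k : ℕ, ∀ x, R u₀ x ↔ R (a ^ (2 * k) • u₀) x := by
    intro k
    induction k with
    | zero => intro x; rw [mul_zero, pow_zero, one_smul]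
    | succ k ih =>
      set w := a ^ (2 * k) • u₀
      have hw : R w v₀ := (ih v₀).1 hedge
      have h1 : R (a • w) (a • v₀) := hinv a hw
      have h2 : R v₀ (a • v₀) := by
        have := hinv a hedge
        rwa [ha] at this
      have h3 : R (a • w) u₀ := hsame h2 h1 (hsymm hedge)
      have h4 : R (a • a • w) v₀ := by
        have := hinv a h3
        rwa [ha] at this
      intro x
      rw [show a ^ (2 * (k + 1)) • u₀ = a • a • w by
        rw [show 2 * (k + 1) = 1 + (1 + 2 * k) by ring, pow_add, pow_one, mul_smul, pow_add, pow_one, mul_smul]]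
      exact ⟨fun hx => hsame hedge h4 hx, fun hx => hsame h4 hedge hx⟩
  obtain ⟨k, hk⟩ := hA
  have hlast : a • (a ^ (2 * k) • u₀) = u₀ := by
    rw [← mul_smul, ← pow_succ', ← hk, pow_card_eq_one', one_smul]
  have hw : R (a ^ (2 * k) • u₀) v₀ := (key k v₀).1 hedge
  have h1 : R u₀ (a • v₀) := by
    have := hinv a hw
    rwa [hlast] at this
  have h2 : R v₀ (a • v₀) := by
    have := hinv a hedge
    rwa [ha] at this
  exact hno ⟨u₀, v₀, a • v₀, hedge, h2, h1⟩

end Cfsg.Agent.H35.OddPush
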