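import Cfsg.Agent.H34.Push.Basic
import Cfsg.Agent.H39.Push.Transport
import Mathlib

/-!
Subgroups of a subgroup moved by its automorphisms, and the invariance of its Baumann subgroup.
-/

set_option autoImplicit false
set_option linter.style.haveILetI false

open scoped commutatorElement

namespace Cfsg.Agent.H35.OddPush

open Subgroup
open Cfsg.Agent

variable {G : Type*} [Group G] {S : Subgroup G}

/-- The image of a subgroup of `S` under an automorphism of `S`. -/
def moved (a : MulAut ↥S) (H : Subgroup G) : Subgroup G :=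
  ((H.subgroupOf S).map a.toMonoidHom).map S.subtype

theorem mem_moved {a : MulAut ↥S} {H : Subgroup G} {g : G} :
    g ∈ moved a H ↔ ∃ x : ↥S, (x : G) ∈ H ∧ (a x : G) = g := by
  constructor
  · rintro ⟨_, ⟨x, hx, rfl⟩, rfl⟩
    exact ⟨x, hx, rfl⟩
  · rintro ⟨x, hx, rfl⟩
    exact ⟨a x, ⟨x, hx, rfl⟩, rfl⟩

theorem moved_le (a : MulAut ↥S) (H : Subgroup G) : moved a H ≤ S := map_subtype_le _

theorem moved_one {H : Subgroup G} (hH : H ≤ S) : moved (1 : MulAut ↥S) H = H := by
  ext g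
  rw [mem_moved]
  exact ⟨fun ⟨x, hx, e⟩ => e ▸ hx, fun hg => ⟨⟨g, hH hg⟩, hg, rfl⟩⟩

theorem moved_mul (a b : MulAut ↥S) (H : Subgroup G) : moved (a * b) H = moved a (moved b H) := by
  ext g
  rw [mem_moved, mem_moved]
  constructor
  · rintro ⟨x, hx, e⟩
    exact ⟨b x, mem_moved.2 ⟨x, hx, rfl⟩, e⟩
  · rintro ⟨y, hy, e⟩
    obtain ⟨x, hx, hxy⟩ := mem_moved.1 hy
    exact ⟨x, hx, by rw [← e, ← Subtype.ext hxy]; rfl⟩

theorem moved_mono (a : MulAut ↥S) {H K : Subgroup G} (h : H ≤ K) : moved a H ≤ moved a K := fun g hg => by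
  obtain ⟨x, hx, e⟩ := mem_moved.1 hg
  exact mem_moved.2 ⟨x, h hx, e⟩

theorem card_moved (a : MulAut ↥S) {H : Subgroup G} (hH : H ≤ S) : Nat.card ↥(moved a H) = Nat.card ↥H := by
  rw [moved, card_map_of_injective S.subtype_injective, card_map_of_injective a.injective,
    Nat.card_congr (subgroupOfEquivOfLe hH).toEquiv]

theorem moved_inf (a : MulAut ↥S) (H K : Subgroup G) : moved a (H ⊓ K) = moved a H ⊓ moved a K := by
  rw [moved, moved, moved, subgroupOf, subgroupOf, subgroupOf, comap_inf, Subgroup.map_inf _ _ _ a.injective,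
    Subgroup.map_inf _ _ _ S.subtype_injective]

theorem moved_commute_iff (a : MulAut ↥S) {H K : Subgroup G} (hH : H ≤ S) (hK : K ≤ S) :
    moved a H ≤ centralizer (moved a K : Set G) ↔ H ≤ centralizer (K : Set G) := by
  constructor
  · intro h g hg
    refine mem_centralizer_iff.2 fun k hk => ?_
    have e := mem_centralizer_iff.1 (h (mem_moved.2 ⟨⟨g, hH hg⟩, hg, rfl⟩)) _
      (mem_moved.2 ⟨⟨k, hK hk⟩, hk, rfl⟩)
    rw [← coe_mul, ← coe_mul, ← map_mul, ← map_mul] at e
    exact congrArg Subtype.val (a.injective (Subtype.ext e))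
  · intro h g hg
    obtain ⟨x, hx, rfl⟩ := mem_moved.1 hg
    refine mem_centralizer_iff.2 fun k hk => ?_
    obtain ⟨y, hy, rfl⟩ := mem_moved.1 hk
    rw [← coe_mul, ← coe_mul, ← map_mul, ← map_mul]
    exact congrArg (fun z : ↥S => (a z : G)) (Subtype.ext (mem_centralizer_iff.1 (h hx) _ hy))

theorem moved_cent (a : MulAut ↥S) {H : Subgroup G} (hH : H ≤ S) :
    moved a (S ⊓ centralizer (H : Set G)) = S ⊓ centralizer (moved a H : Set G) := by
  refine le_antisymm (le_inf (moved_le _ _) ((moved_commute_iff a inf_le_left hH).2 inf_le_right)) fun g hg => ?_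
  refine mem_moved.2 ⟨a.symm ⟨g, hg.1⟩, ⟨(a.symm ⟨g, hg.1⟩).2, mem_centralizer_iff.2 fun k hk => ?_⟩,
    by rw [a.apply_symm_apply]⟩
  have e : (⟨k, hH hk⟩ : ↥S) * a.symm ⟨g, hg.1⟩ = a.symm ⟨g, hg.1⟩ * ⟨k, hH hk⟩ := by
    refine a.injective (Subtype.ext ?_)
    rw [map_mul, map_mul, a.apply_symm_apply]
    exact mem_centralizer_iff.1 hg.2 _ (mem_moved.2 ⟨⟨k, hH hk⟩, hk, rfl⟩)
  exact congrArg Subtype.val e

theorem moved_normalized [Finite G] (a : MulAut ↥S) {H : Subgroup G} (hH : S ≤ normalizer (H : Set G)) :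
    S ≤ normalizer (moved a H : Set G) := by
  intro s hs
  refine H74.mem_normalizer_of_conj_mem fun g hg => ?_
  obtain ⟨x, hx, rfl⟩ := mem_moved.1 hg
  set t := a.symm ⟨s, hs⟩
  refine mem_moved.2 ⟨t * x * t⁻¹, (mem_normalizer_iff.1 (hH t.2) _).1 hx, ?_⟩
  rw [map_mul, map_mul, map_inv, a.apply_symm_apply]
  rfl

theorem moved_elementary (a : MulAut ↥S) {H : Subgroup G} (hH : H ≤ S) {p : ℕ}
    (he : Cfsg.IsElementaryAbelian p H) : Cfsg.IsElementaryAbelian p (moved a H) := by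
  haveI := he.1
  refine ⟨le_centralizer_iff_isMulCommutative.1
    ((moved_commute_iff a hH hH).2 (le_centralizer_iff_isMulCommutative.2 he.1)), fun g hg => ?_⟩
  obtain ⟨x, hx, rfl⟩ := mem_moved.1 hg
  rw [← coe_pow, ← map_pow, show x ^ p = 1 from Subtype.ext (by simpa using he.2 _ hx), map_one, coe_one]

/-- A subgroup with all its images is invariant. -/
theorem mem_of_moved_le {a : MulAut ↥S} {U : Subgroup G} (h : moved a U ≤ U) (x : ↥S) (hx : (x : G) ∈ U) :
    (a x : G) ∈ U := h (mem_moved.2 ⟨x, hx, rfl⟩)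

section Baumann

variable [Finite G] {p : ℕ} [Fact p.Prime]

/-- `J(S)` computed inside `S`. -/
theorem thompson_top (S : Subgroup G) :
    (Cfsg.thompsonSubgroupOf p (⊤ : Subgroup ↥S)).map S.subtype = Cfsg.thompsonSubgroupOf p S := by
  unfold Cfsg.thompsonSubgroupOf
  rw [← H34.map_thompsonSubgroup (p := p) (topEquiv : (⊤ : Subgroup ↥S) ≃* ↥S), Subgroup.map_map, Subgroup.map_map]
  rfl

/-- `B(S)` computed inside `S`. -/
theorem baumann_top (S : Subgroup G) :
    (Cfsg.baumannSubgroupOf p (⊤ : Subgroup ↥S)).map S.subtype = Cfsg.baumannSubgroupOf p S := by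
  have hι := S.subtype_injective
  have hS : (⊤ : Subgroup ↥S).map S.subtype = S := by rw [← MonoidHom.range_eq_map, Subgroup.range_subtype]
  have hZ : (Cfsg.omegaOne p (Cfsg.centerThompsonOf p (⊤ : Subgroup ↥S))).map S.subtype =
      Cfsg.omegaOne p (Cfsg.centerThompsonOf p S) := by
    rw [H34.map_omegaOne _ hι, Cfsg.centerThompsonOf, H39.Push.map_inf_centralizer _ hι, thompson_top]
    rfl
  rw [Cfsg.baumannSubgroupOf, H39.Push.map_inf_centralizer _ hι, hS, hZ]
  rfl

theorem moved_map_subtype (a : MulAut ↥S) (H : Subgroup ↥S) :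
    moved a (H.map S.subtype) = (H.map a.toMonoidHom).map S.subtype := by
  rw [moved, subgroupOf, comap_map_eq_self_of_injective S.subtype_injective]

/-- `B(S)` is invariant under the automorphisms of `S`. -/
theorem moved_baumann (a : MulAut ↥S) :
    moved a (Cfsg.baumannSubgroupOf p S) = Cfsg.baumannSubgroupOf p S := by
  rw [← baumann_top, moved_map_subtype, H51.map_baumannSubgroupOf, map_top_of_surjective _ a.surjective]

/-- `Ω₁(Z(S))` is invariant under the automorphisms of `S`. -/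
theorem moved_omegaCenter (a : MulAut ↥S) :
    moved a (Cfsg.omegaOneCenter p S) = Cfsg.omegaOneCenter p S := by
  have hS : (⊤ : Subgroup ↥S).map S.subtype = S := by rw [← MonoidHom.range_eq_map, Subgroup.range_subtype]
  have h := H39.Push.omegaOneCenter_map S.subtype S.subtype_injective (p := p) (⊤ : Subgroup ↥S)
  rw [hS] at h
  rw [h, moved_map_subtype, H51.map_omegaOneCenter, map_top_of_surjective _ a.surjective]

/-- A characteristic subgroup of an invariant subgroup is invariant. -/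
theorem moved_characteristic (a : MulAut ↥S) {B C : Subgroup G} (hBS : B ≤ S) (hB : moved a B = B) (hCB : C ≤ B)
    (hC : (C.subgroupOf B).Characteristic) : moved a C ≤ C := by
  have hmap : ∀ x : ↥B, (a ⟨x, hBS x.2⟩ : G) ∈ B := fun x => hB.le (mem_moved.2 ⟨⟨x, hBS x.2⟩, x.2, rfl⟩)
  let α : ↥B →* ↥B := MonoidHom.mk' (fun x => ⟨a ⟨x, hBS x.2⟩, hmap x⟩) fun x y => Subtype.ext (by
    show (a ⟨(x : G) * y, hBS (mul_mem x.2 y.2)⟩ : G) = _
    rw [show (⟨(x : G) * y, hBS (mul_mem x.2 y.2)⟩ : ↥S) = ⟨x, hBS x.2⟩ * ⟨y, hBS y.2⟩ from rfl, map_mul]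
    rfl)
  have hinj : Function.Injective α := fun x y e => by
    have h1 : a ⟨x, hBS x.2⟩ = a ⟨y, hBS y.2⟩ := Subtype.ext (congrArg (fun z : ↥B => (z : G)) e)
    exact Subtype.ext (congrArg (fun z : ↥S => (z : G)) (a.injective h1))
  let e := MulEquiv.ofBijective α (Finite.injective_iff_bijective.1 hinj)
  intro g hg
  obtain ⟨x, hx, rfl⟩ := mem_moved.1 hg
  have h1 : e ⟨x, hCB hx⟩ ∈ (C.subgroupOf B).map e.toMonoidHom := mem_map_of_mem _ hx
  rw [characteristic_iff_map_eq.1 hC e] at h1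
  exact h1

end Baumann

end Cfsg.Agent.H35.OddPush
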