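import Cfsg.Agent.H35.OddPush.Spec
import Cfsg.Agent.H35.OddPush.Moved
import Cfsg.Agent.H35.OddPush.Graph
import Cfsg.Agent.H20.FixedPoints
import Cfsg.Agent.H34.Push.KillTools
import Mathlib

/-!
With an odd group of automorphisms of the Sylow 2-subgroup, all images of `Ω₁(Z(O₂(G)))` lie in `O₂(G)`, so their
join is normal.
-/

set_option autoImplicit false
set_option linter.style.haveILetI false
set_option linter.unusedSectionVars false
set_option maxHeartbeats 1000000

open scoped commutatorElement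

namespace Cfsg.Agent.H35.OddPush

open Subgroup
open Cfsg.Agent
open Cfsg.Agent.H34.Push (vee cee Ctx)

universe u

variable {G : Type u} [Group G] [Finite G] {T : Sylow 2 G} {M : Subgroup G}

/-- The images of `V`. -/
abbrev img (a : MulAut ↥(T : Subgroup G)) : Subgroup G := moved a (vee 2 G)

/-- Two images that do not commute. -/
def Adj (a b : MulAut ↥(T : Subgroup G)) : Prop := ¬ img a ≤ centralizer (img b : Set G)

theorem adj_symm {a b : MulAut ↥(T : Subgroup G)} (h : Adj a b) : Adj b a := fun h' =>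
  h (le_centralizer_iff.1 h')

theorem vee_le_T : vee 2 G ≤ (T : Subgroup G) := H34.Push.vee_le_core.trans (H72.pCore_le_sylow T)

theorem img_one : img (1 : MulAut ↥(T : Subgroup G)) = vee 2 G := moved_one vee_le_T

theorem adj_mul (c : MulAut ↥(T : Subgroup G)) {a b : MulAut ↥(T : Subgroup G)} (h : Adj a b) :
    Adj (c * a) (c * b) := by
  unfold Adj img
  rw [moved_mul, moved_mul, moved_commute_iff c (moved_le _ _) (moved_le _ _)]
  exact h

theorem T_le_normalizer_vee : (T : Subgroup G) ≤ normalizer (vee 2 G : Set G) := by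
  haveI := OddPush.vee_normal (G := G)
  exact le_normalizer_of_normal

theorem vee_comm_self : vee 2 G ≤ centralizer (vee 2 G : Set G) :=
  le_centralizer_iff_isMulCommutative.2 (H34.Push.vee_elementary (G := G) (p := 2)).1

theorem img_comm_self (a : MulAut ↥(T : Subgroup G)) : img a ≤ centralizer (img a : Set G) :=
  (moved_commute_iff a vee_le_T vee_le_T).2 vee_comm_self

/-- A neighbour of `V` offends exactly on it. -/
theorem nbr_of_adj (hc : Ctx T M) {a : MulAut ↥(T : Subgroup G)} (h : Adj 1 a) : Nbr T (img a) := by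
  set N := Nat.card ↥(vee 2 G) with hN
  have hel : ∀ b : MulAut ↥(T : Subgroup G), Cfsg.IsElementaryAbelian 2 (img b) := fun b =>
    moved_elementary b vee_le_T H34.Push.vee_elementary
  have hbound : ∀ b : MulAut ↥(T : Subgroup G), (cee 2 G).relIndex (img b) *
      Nat.card ↥(vee 2 G ⊓ centralizer (img b : Set G)) ≤ N := by
    intro b
    refine hc.bound (fun x hx y hy => ?_) fun x hx => ?_
    · rw [commutatorElement_eq_one_iff_mul_comm.2 (mem_centralizer_iff.1 (img_comm_self b hy) x hx)]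
      exact one_mem _
    · rw [(hel b).2 x hx]; exact one_mem _
  have hcard : ∀ b : MulAut ↥(T : Subgroup G),
      Nat.card ↥(img b ⊓ cee 2 G) * (cee 2 G).relIndex (img b) = N := fun b => by
    rw [← inf_relIndex_left, H32.card_mul_relIndex (inf_le_left : img b ⊓ cee 2 G ≤ img b)]
    exact card_moved b vee_le_T
  -- the two intersections correspond under `a`
  have htr : moved a (vee 2 G ⊓ centralizer (img a⁻¹ : Set G)) = img a ⊓ cee 2 G := by
    have e1 : vee 2 G ⊓ centralizer (img a⁻¹ : Set G) =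
        vee 2 G ⊓ ((T : Subgroup G) ⊓ centralizer (img a⁻¹ : Set G)) := by
      rw [← inf_assoc, inf_eq_left.2 (vee_le_T (T := T))]
    rw [e1, moved_inf, moved_cent a (moved_le _ _), ← moved_mul, mul_inv_cancel, moved_one vee_le_T, ← inf_assoc,
      inf_eq_left.2 (moved_le a _)]
  have htr' : moved a (img a⁻¹ ⊓ cee 2 G) = vee 2 G ⊓ centralizer (img a : Set G) := by
    have e1 : img a⁻¹ ⊓ cee 2 G = img a⁻¹ ⊓ ((T : Subgroup G) ⊓ centralizer (vee 2 G : Set G)) := by
      rw [← inf_assoc, inf_eq_left.2 (moved_le (a⁻¹ : MulAut ↥(T : Subgroup G)) _)]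
    rw [e1, moved_inf, moved_cent a vee_le_T, ← moved_mul, mul_inv_cancel, moved_one vee_le_T, ← inf_assoc,
      inf_eq_left.2 (vee_le_T (T := T))]
  have hk : Nat.card ↥(img a ⊓ cee 2 G) = Nat.card ↥(vee 2 G ⊓ centralizer (img a⁻¹ : Set G)) := by
    rw [← htr, card_moved a (inf_le_left.trans vee_le_T)]
  have hm : Nat.card ↥(vee 2 G ⊓ centralizer (img a : Set G)) = Nat.card ↥(img a⁻¹ ⊓ cee 2 G) := by
    rw [← htr', card_moved a (inf_le_left.trans (moved_le _ _))]
  have hle : Nat.card ↥(img a ⊓ cee 2 G) ≤ Nat.card ↥(vee 2 G ⊓ centralizer (img a : Set G)) := by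
    have h2 := hbound a⁻¹
    rw [← hk, ← hcard a⁻¹, ← hm] at h2
    refine Nat.le_of_mul_le_mul_left (h2.trans (le_of_eq (mul_comm _ _))) ?_
    exact Nat.pos_of_ne_zero fun e => by
      have := hcard a⁻¹
      rw [e, mul_zero] at this
      exact (Nat.card_pos (α := ↥(vee 2 G))).ne this
  refine ⟨moved_le _ _, moved_normalized a T_le_normalizer_vee, hel a, fun hle' => ?_,
    le_antisymm ?_ (hbound a)⟩
  · exact h (by rw [img_one]; exact le_centralizer_iff.1 hle')
  · show N ≤ _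
    rw [← hcard a, mul_comm]
    exact Nat.mul_le_mul_left _ hle

/-- `|S H| |S ∩ H| = |S| |H|` when `S` normalises `H`. -/
theorem card_sup_mul_card_inf' {S H : Subgroup G} (h : S ≤ normalizer (H : Set G)) :
    Nat.card ↥(S ⊔ H) * Nat.card ↥(S ⊓ H) = Nat.card S * Nat.card H := by
  set N := normalizer (H : Set G) with hN
  haveI : (H.subgroupOf N).Normal := normal_in_normalizer
  have e := H32.card_sup_mul_card_inf (S.subgroupOf N) (H.subgroupOf N)
  rw [← subgroupOf_sup h le_normalizer, show S.subgroupOf N ⊓ H.subgroupOf N = (S ⊓ H).subgroupOf N from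
      (comap_inf _ _ _).symm,
    Nat.card_congr (subgroupOfEquivOfLe (sup_le h le_normalizer : S ⊔ H ≤ N)).toEquiv,
    Nat.card_congr (subgroupOfEquivOfLe (inf_le_left.trans h : S ⊓ H ≤ N)).toEquiv,
    Nat.card_congr (subgroupOfEquivOfLe h).toEquiv,
    Nat.card_congr (subgroupOfEquivOfLe (le_normalizer : H ≤ N)).toEquiv] at e
  exact e

/-- An element of `X Q` moves a vector as its part in `X` does. -/
theorem comm_vee_of_mul {v x q : G} (hv : v ∈ vee 2 G) (hq : q ∈ Cfsg.pCore 2 G) :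
    ⁅v, x * q⁆ = ⁅v, x⁆ := by
  have hvq : v * q = q * v := (mem_centralizer_iff.1 (H34.Push.core_le_cee hq) v hv)
  rw [commutatorElement_def, commutatorElement_def]
  calc v * (x * q) * v⁻¹ * (x * q)⁻¹ = v * x * (q * v⁻¹ * q⁻¹) * x⁻¹ := by group
    _ = v * x * (q * (q * v)⁻¹) * x⁻¹ := by group
    _ = v * x * (q * (v * q)⁻¹) * x⁻¹ := by rw [hvq]
    _ = _ := by group

theorem comm_vee_eq {X U₀ : Subgroup G} (hX : (T : Subgroup G) ≤ normalizer (X : Set G))
    (h : X ⊔ Cfsg.pCore 2 G = U₀) : ⁅vee 2 G, X⁆ = ⁅vee 2 G, U₀⁆ := by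
  refine le_antisymm (commutator_mono le_rfl (h ▸ le_sup_left)) (commutator_le.2 fun v hv u hu => ?_)
  rw [← h] at hu
  haveI := H34.Push.pCore_normal' (G := G) (p := 2)
  obtain ⟨x, hx, q, hq, rfl⟩ := mem_sup_of_normal_right.1 hu
  rw [comm_vee_of_mul hv hq]
  exact commutator_mem_commutator hv hx

/-- The three facts about `O₂(G)` used below. -/
structure CoreFacts (G : Type u) [Group G] : Prop where
  comm : ⁅Cfsg.pCore 2 G, Cfsg.pResidual 2 G⁆ ≤ vee 2 G

theorem CoreFacts.derived (hf : CoreFacts G) : ⁅Cfsg.pCore 2 G, Cfsg.pCore 2 G⁆ ≤ oddCent G := by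
  refine commutator_eq_bot_iff_le_centralizer.1 (commutator_commutator_eq_bot_of_rotate ?_ ?_)
  · refine commutator_eq_bot_iff_le_centralizer.2 ?_
    exact hf.comm.trans (le_centralizer_iff.1 H34.Push.core_le_cee)
  · refine commutator_eq_bot_iff_le_centralizer.2 ?_
    rw [commutator_comm]
    exact hf.comm.trans (le_centralizer_iff.1 H34.Push.core_le_cee)

theorem CoreFacts.square (hf : CoreFacts G) {q : G} (hq : q ∈ Cfsg.pCore 2 G) : q * q ∈ oddCent G := by
  refine mem_centralizer_iff.2 fun l hl => ?_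
  have hd : ⁅q, l⁆ ∈ vee 2 G := hf.comm (commutator_mem_commutator hq hl)
  have hdq : ⁅q, l⁆ * q = q * ⁅q, l⁆ := mem_centralizer_iff.1 (H34.Push.core_le_cee hq) _ hd
  have hd2 : ⁅q, l⁆ * ⁅q, l⁆ = 1 := by
    rw [← sq]; exact (H34.Push.vee_elementary (G := G) (p := 2)).2 _ hd
  symm
  refine commutatorElement_eq_one_iff_mul_comm.1 ?_
  calc ⁅q * q, l⁆ = q * ⁅q, l⁆ * q⁻¹ * ⁅q, l⁆ := by rw [commutatorElement_def, commutatorElement_def]; group
    _ = ⁅q, l⁆ * q * q⁻¹ * ⁅q, l⁆ := by rw [hdq]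
    _ = ⁅q, l⁆ * ⁅q, l⁆ := by group
    _ = 1 := hd2

/-- All images of `V` lie in `O₂(G)`. -/
theorem img_le_core (hc : Ctx T M) (hcase : Case T) (hf : CoreFacts G)
    (A : Subgroup (MulAut ↥(T : Subgroup G))) (hA : Odd (Nat.card A)) {a : MulAut ↥(T : Subgroup G)} (ha : a ∈ A) :
    img a ≤ Cfsg.pCore 2 G := by
  classical
  haveI := OddPush.vee_normal (G := G)
  haveI := oddCent_normal (G := G)
  haveI := H34.Push.pCore_normal' (G := G) (p := 2)
  set Q := Cfsg.pCore 2 G with hQdef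
  have hQT : Q ≤ (T : Subgroup G) := H72.pCore_le_sylow T
  obtain ⟨U₀, hU₀⟩ := hcase.image
  set z := ⁅vee 2 G, U₀⁆ with hzdef
  have hnle : ∀ a : MulAut ↥(T : Subgroup G), ¬ Adj 1 a → img a ≤ Q := fun a h => by
    unfold Adj at h
    rw [not_not, img_one] at h
    exact (le_inf (moved_le _ _) (le_centralizer_iff.1 h)).trans hc.inf_cee.le
  suffices key : ∀ u v : ↥A, ¬ Adj (u : MulAut ↥(T : Subgroup G)) v from
    hnle a (key 1 ⟨a, ha⟩)
  intro u₀ v₀ hedge
  -- the commutators with a neighbour of `V` are all the same and not centralised by `O²(G)`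
  have hz : ∀ b : MulAut ↥(T : Subgroup G), Adj 1 b → ⁅vee 2 G, img b⁆ = z ∧ ¬ z ≤ oddCent G := by
    intro b hb
    have hn := nbr_of_adj hc hb
    have e := comm_vee_eq hn.norm (hU₀ _ hn)
    refine ⟨e, fun hle => hn.move fun x hx => H34.Push.core_le_cee (mem_core_of_small hc (hn.le hx) fun v hv => ?_)⟩
    exact hle (e.le (commutator_mem_commutator hv hx))
  -- the commutator at a vertex does not depend on the neighbour
  have hzat : ∀ (u b b' : MulAut ↥(T : Subgroup G)), Adj u b → Adj u b' → ⁅img u, img b⁆ = ⁅img u, img b'⁆ := by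
    intro u b b' hb hb'
    have h1 := adj_mul u⁻¹ hb
    have h2 := adj_mul u⁻¹ hb'
    rw [inv_mul_cancel] at h1 h2
    have e := (hz _ h1).1.trans (hz _ h2).1.symm
    have htr : ∀ c, ⁅img u, img c⁆ = moved u ⁅vee 2 G, img (u⁻¹ * c)⁆ := by
      intro c
      have hc' : img c = moved u (img (u⁻¹ * c)) := by
        rw [← moved_mul, mul_inv_cancel_left]
      rw [hc']
      have hsub : ∀ H K : Subgroup G, H ≤ (T : Subgroup G) → K ≤ (T : Subgroup G) →
          ⁅moved u H, moved u K⁆ = moved u ⁅H, K⁆ := by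
        intro H K hH hK
        have e1 : (⁅H.subgroupOf (T : Subgroup G), K.subgroupOf (T : Subgroup G)⁆).map (T : Subgroup G).subtype =
            ⁅H, K⁆ := by
          rw [Subgroup.map_commutator, subgroupOf_map_subtype, subgroupOf_map_subtype, inf_eq_left.2 hH,
            inf_eq_left.2 hK]
        conv_rhs => rw [← e1, moved_map_subtype]
        rw [moved, moved, Subgroup.map_commutator, Subgroup.map_commutator]
      exact hsub _ _ vee_le_T (moved_le _ _)
    rw [htr, htr, e]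
  -- unrelated images with a common neighbour have the same neighbours
  have htwin1 : ∀ v w, ¬ Adj 1 v → Adj 1 w → Adj v w → ∀ x : MulAut ↥(T : Subgroup G), Adj 1 x → Adj v x := by
    intro v w hv hw hvw x hx hvx
    have hW : img v ≤ Q := hnle v hv
    have hbot : ⁅img v, img x⁆ = ⊥ := commutator_eq_bot_iff_le_centralizer.2 hvx
    have h1 : ⁅img w, img v⁆ = z := by
      rw [hzat w v 1 (adj_symm hvw) (adj_symm hw), img_one, commutator_comm]
      exact (hz w hw).1
    refine (hz w hw).2 (h1 ▸ ?_)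
    rw [commutator_comm]
    refine commutator_le.2 fun g hg y hy => ?_
    have hnx := nbr_of_adj hc hx
    have hy' : y ∈ img x ⊔ Q := by
      rw [hU₀ _ hnx, ← hU₀ _ (nbr_of_adj hc hw)]
      exact mem_sup_left hy
    obtain ⟨x', hx', q, hq, rfl⟩ := mem_sup_of_normal_right.1 hy'
    have h3 : ⁅g, x'⁆ = 1 := (mem_bot (G := G)).1 (hbot ▸ commutator_mem_commutator hg hx')
    have e : ⁅g, x' * q⁆ = ⁅g, x'⁆ * (x' * ⁅g, q⁆ * x'⁻¹) := by
      rw [commutatorElement_def, commutatorElement_def, commutatorElement_def]; group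
    rw [e, h3, one_mul]
    exact Normal.conj_mem inferInstance _ (hf.derived (commutator_mem_commutator (hW hg) hq)) _
  obtain ⟨u, v, w, huv, hvw, huw⟩ := exists_triangle hA (fun u v : ↥A => Adj (u : MulAut ↥(T : Subgroup G)) v)
    (fun h => adj_symm h) (fun c u v h => adj_mul (c : MulAut ↥(T : Subgroup G)) h)
    (fun u v => ⟨v * u⁻¹, show v * u⁻¹ * u = v by group⟩)
    (fun {u v w} h1 h2 h3 {x} h4 => by
      have e1 : ¬ Adj 1 ((u : MulAut ↥(T : Subgroup G))⁻¹ * (v : MulAut ↥(T : Subgroup G))) := fun h5 => h1 (by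
        have := adj_mul (u : MulAut ↥(T : Subgroup G)) h5
        rwa [mul_one, mul_inv_cancel_left] at this)
      have e2 := adj_mul (u : MulAut ↥(T : Subgroup G))⁻¹ h2
      have e3 := adj_mul (u : MulAut ↥(T : Subgroup G))⁻¹ h3
      have e4 := adj_mul (u : MulAut ↥(T : Subgroup G))⁻¹ h4
      rw [inv_mul_cancel] at e2 e4
      have := adj_mul (u : MulAut ↥(T : Subgroup G)) (htwin1 _ _ e1 e2 e3 _ e4)
      rwa [mul_inv_cancel_left, mul_inv_cancel_left] at this) hedge
  -- move the triangle to `V`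
  have h1 := adj_mul (u : MulAut ↥(T : Subgroup G))⁻¹ huv
  have h2 := adj_mul (u : MulAut ↥(T : Subgroup G))⁻¹ huw
  have h3 := adj_mul (u : MulAut ↥(T : Subgroup G))⁻¹ hvw
  rw [inv_mul_cancel] at h1 h2
  set b := (u : MulAut ↥(T : Subgroup G))⁻¹ * (v : MulAut ↥(T : Subgroup G))
  set c := (u : MulAut ↥(T : Subgroup G))⁻¹ * (w : MulAut ↥(T : Subgroup G))
  set X := img b with hXdef
  set Y := img c with hYdef
  have hnX := nbr_of_adj hc h1
  have hnY := nbr_of_adj hc h2
  have hXY : X ⊔ Q = Y ⊔ Q := (hU₀ _ hnX).trans (hU₀ _ hnY).symm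
  -- `[Y, X]` is the common commutator
  have hYX : ⁅Y, X⁆ = z := by
    rw [commutator_comm, hXdef, hYdef, hzat b c 1 h3 (adj_symm h1), img_one, commutator_comm]
    exact (hz b h1).1
  refine (hz b h1).2 (hYX ▸ ?_)
  -- `Q = V C_Q(X)`
  have hXT : X ≤ (T : Subgroup G) := hnX.le
  set C := Q ⊓ centralizer (X : Set G) with hC
  have hTX : (T : Subgroup G) ⊓ centralizer (X : Set G) = X ⊔ C := by
    refine le_antisymm (fun g hg => ?_) (sup_le (le_inf hXT (img_comm_self b)) (inf_le_inf_right _ hQT))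
    obtain ⟨x, hx, q, hq, rfl⟩ := mem_sup_of_normal_right.1 (hcase.self_cent X hnX hg)
    refine mul_mem (mem_sup_left hx) (mem_sup_right ⟨hq, ?_⟩)
    have := mul_mem (inv_mem (img_comm_self b hx)) hg.2
    rwa [inv_mul_cancel_left] at this
  have hcardQ : Nat.card ↥(X ⊔ C) = Nat.card ↥Q := by
    rw [← hTX, hXdef, ← moved_cent b vee_le_T, card_moved b inf_le_left,
      show (T : Subgroup G) ⊓ centralizer (vee 2 G : Set G) = Q from hc.inf_cee]
  have hXC : X ⊓ C = X ⊓ cee 2 G := by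
    refine le_antisymm (le_inf inf_le_left (inf_le_right.trans (inf_le_left.trans H34.Push.core_le_cee)))
      (le_inf inf_le_left (le_inf ?_ (inf_le_left.trans (img_comm_self b))))
    exact (inf_le_inf_right _ hXT).trans hc.inf_cee.le
  have hVC : vee 2 G ⊓ C = vee 2 G ⊓ centralizer (X : Set G) := by
    rw [hC, ← inf_assoc, inf_eq_left.2 H34.Push.vee_le_core]
  have hQV : Q ≤ vee 2 G ⊔ C := by
    refine (eq_of_le_of_card_ge (sup_le H34.Push.vee_le_core inf_le_left) (le_of_eq ?_)).ge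
    have e1 := card_sup_mul_card_inf' ((le_centralizer_iff.1 inf_le_right : X ≤ centralizer (C : Set G)).trans
      (centralizer_le_normalizer _))
    have e2 : Nat.card ↥(vee 2 G ⊔ C) * Nat.card ↥(vee 2 G ⊓ C) = Nat.card ↥(vee 2 G) * Nat.card ↥C := by
      rw [mul_comm]
      have := H32.card_sup_mul_card_inf C (vee 2 G)
      rw [sup_comm, inf_comm] at this
      rw [mul_comm, this, mul_comm]
    have e3 : Nat.card ↥X = Nat.card ↥(X ⊓ cee 2 G) * (cee 2 G).relIndex X := by
      rw [← inf_relIndex_left, H32.card_mul_relIndex (inf_le_left : X ⊓ cee 2 G ≤ X)]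
    rw [hXC, hcardQ, e3] at e1
    rw [hVC, hnX.exact_off] at e2
    refine Nat.eq_of_mul_eq_mul_right (Nat.mul_pos (Nat.card_pos (α := ↥(X ⊓ cee 2 G)))
      (Nat.card_pos (α := ↥(vee 2 G ⊓ centralizer (X : Set G))))) ?_
    calc Nat.card ↥Q * (Nat.card ↥(X ⊓ cee 2 G) * Nat.card ↥(vee 2 G ⊓ centralizer (X : Set G)))
        = (Nat.card ↥Q * Nat.card ↥(X ⊓ cee 2 G)) * Nat.card ↥(vee 2 G ⊓ centralizer (X : Set G)) := by ring
      _ = Nat.card ↥(X ⊓ cee 2 G) *
          ((cee 2 G).relIndex X * Nat.card ↥(vee 2 G ⊓ centralizer (X : Set G)) * Nat.card ↥C) := by rw [e1]; ring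
      _ = _ := by rw [← e2]; ring
  -- the decomposition of the elements of `Y`
  have hdec : ∀ y ∈ Y, ∃ x ∈ X, ∃ v ∈ vee 2 G, ∃ d ∈ C, y = x * (v * d) := by
    intro y hy
    obtain ⟨x, hx, q, hq, rfl⟩ := mem_sup_of_normal_right.1 (hXY.ge (mem_sup_left hy) : y ∈ X ⊔ Q)
    obtain ⟨v, hv, d, hd, rfl⟩ := mem_sup_of_normal_left.1 (hQV hq)
    exact ⟨x, hx, v, hv, d, hd, rfl⟩
  -- commutators of vectors with `X` commute with everything in sight
  have hcm : ∀ x ∈ X, ∀ v ∈ vee 2 G, ⁅v, x⁆ ∈ X ∧ ⁅v, x⁆ ∈ vee 2 G := by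
    intro x hx v hv
    constructor
    · rw [commutatorElement_def]
      exact mul_mem ((mem_normalizer_iff.1 (hnX.norm (vee_le_T hv)) _).1 hx) (inv_mem hx)
    · rw [commutatorElement_def, mul_assoc, mul_assoc, ← mul_assoc x]
      exact mul_mem hv (Normal.conj_mem inferInstance _ (inv_mem hv) x)
  have hXX : ∀ x ∈ X, ∀ x' ∈ X, x * x' = x' * x := fun x hx x' hx' =>
    mem_centralizer_iff.1 (img_comm_self b hx') x hx
  have hVV : ∀ v ∈ vee 2 G, ∀ v' ∈ vee 2 G, v * v' = v' * v := fun v hv v' hv' =>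
    mem_centralizer_iff.1 (vee_comm_self hv') v hv
  have hXd : ∀ x ∈ X, ∀ d ∈ C, x * d = d * x := fun x hx d hd => mem_centralizer_iff.1 hd.2 x hx
  have hVd : ∀ v ∈ vee 2 G, ∀ d ∈ C, v * d = d * v := fun v hv d hd =>
    mem_centralizer_iff.1 (H34.Push.core_le_cee hd.1) v hv
  -- the product of two such elements
  have hprod : ∀ x ∈ X, ∀ v ∈ vee 2 G, ∀ d ∈ C, ∀ x' ∈ X, ∀ v' ∈ vee 2 G, ∀ d' ∈ C,
      x * (v * d) * (x' * (v' * d')) = ⁅v, x'⁆ * (x * x') * (v * v') * (d * d') := by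
    intro x hx v hv d hd x' hx' v' hv' d' hd'
    calc x * (v * d) * (x' * (v' * d')) = x * v * (d * x') * v' * d' := by group
      _ = x * v * (x' * d) * v' * d' := by rw [hXd x' hx' d hd]
      _ = x * ⁅v, x'⁆ * x' * v * (d * v') * d' := by rw [commutatorElement_def]; group
      _ = (x * ⁅v, x'⁆) * x' * v * (v' * d) * d' := by rw [hVd v' hv' d hd]
      _ = (⁅v, x'⁆ * x) * x' * v * (v' * d) * d' := by rw [hXX x hx _ (hcm x' hx' v hv).1]
      _ = _ := by group
  rw [commutator_comm]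
  refine commutator_le.2 fun x' hx' y hy => ?_
  obtain ⟨x, hx, v, hv, d, hd, rfl⟩ := hdec y hy
  obtain ⟨y', hy', q', hq', e'⟩ := mem_sup_of_normal_right.1 (hXY.le (mem_sup_left hx') : x' ∈ Y ⊔ Q)
  obtain ⟨v', hv', d', hd', hvd⟩ := mem_sup_of_normal_left.1 (hQV (inv_mem hq'))
  have hy'eq : y' = x' * (v' * d') := by rw [hvd, ← e', mul_inv_cancel_right]
  rw [hy'eq] at hy'
  have hYc : x * (v * d) * (x' * (v' * d')) = x' * (v' * d') * (x * (v * d)) :=
    mem_centralizer_iff.1 (img_comm_self c hy') _ hy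
  have hrel : ⁅v, x'⁆ * ⁅v', x⁆ ∈ oddCent G := by
    rw [hprod x hx v hv d hd x' hx' v' hv' d' hd', hprod x' hx' v' hv' d' hd' x hx v hv d hd,
      hXX x' hx' x hx, hVV v' hv' v hv] at hYc
    set P := x * x' * (v * v')
    have e1 : ⁅v', x⁆⁻¹ * ⁅v, x'⁆ = P * (d' * d * (d * d')⁻¹) * P⁻¹ := by
      calc ⁅v', x⁆⁻¹ * ⁅v, x'⁆ = ⁅v', x⁆⁻¹ * (⁅v, x'⁆ * (x * x') * (v * v') * (d * d')) * (d * d')⁻¹ * P⁻¹ := by
            simp only [P]; group
        _ = _ := by rw [hYc]; simp only [P]; group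
    have e2 : ⁅v', x⁆⁻¹ = ⁅v', x⁆ := by
      refine inv_eq_of_mul_eq_one_left ?_
      rw [← sq]; exact (H34.Push.vee_elementary (G := G) (p := 2)).2 _ (hcm x hx v' hv').2
    have e3 : d' * d * (d * d')⁻¹ = ⁅d', d⁆ := by rw [commutatorElement_def]; group
    rw [hVV _ (hcm x' hx' v hv).2 _ (hcm x hx v' hv').2, ← e2, e1, e3]
    exact Normal.conj_mem inferInstance _ (hf.derived (commutator_mem_commutator hd'.1 hd.1)) _
  have hself : ⁅v, x⁆ ∈ oddCent G := by
    have h1 : x * (v * d) * (x * (v * d)) = 1 := by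
      rw [← sq]; exact hnY.elem.2 _ hy
    rw [hprod x hx v hv d hd x hx v hv d hd, show x * x = 1 by rw [← sq]; exact hnX.elem.2 _ hx,
      show v * v = 1 by rw [← sq]; exact (H34.Push.vee_elementary (G := G) (p := 2)).2 _ hv, mul_one, mul_one] at h1
    rw [eq_inv_of_mul_eq_one_left h1]
    exact inv_mem (hf.square hd.1)
  have hgoal := hcase.coord X hnX x hx x' hx' v hv v' hv' hself hrel
  have hcx : ⁅v, x'⁆ * x' = x' * ⁅v, x'⁆ := hXX _ (hcm x' hx' v hv).1 _ hx'
  have hcx2 : ⁅v, x'⁆ * x = x * ⁅v, x'⁆ := hXX _ (hcm x' hx' v hv).1 _ hx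
  have e : ⁅x', x * (v * d)⁆ = ⁅v, x'⁆⁻¹ := by
    have h4 : x * (v * d) * x' = ⁅v, x'⁆ * (x' * (x * (v * d))) := by
      calc x * (v * d) * x' = x * v * (d * x') := by group
        _ = x * v * (x' * d) := by rw [hXd x' hx' d hd]
        _ = x * ⁅v, x'⁆ * x' * v * d := by rw [commutatorElement_def]; group
        _ = ⁅v, x'⁆ * x * x' * v * d := by rw [hcx2]
        _ = ⁅v, x'⁆ * (x * x') * v * d := by group
        _ = ⁅v, x'⁆ * (x' * x) * v * d := by rw [hXX x hx x' hx']
        _ = _ := by group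
    rw [commutatorElement_def]
    calc x' * (x * (v * d)) * x'⁻¹ * (x * (v * d))⁻¹
        = x' * (x * (v * d)) * (x * (v * d) * x')⁻¹ := by group
      _ = _ := by rw [h4]; group
  rw [e]
  exact inv_mem hgoal

end Cfsg.Agent.H35.OddPush
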