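import Cfsg.Agent.H34.Push.Setup
import Mathlib

/-!
The components of a group satisfying the standing hypotheses, together with the fact that all offenders lie in
their join. The main proof repeats that of `H34.Push.Ctx.exists_case`, keeping one more of its intermediate facts.
-/

set_option autoImplicit false
set_option linter.style.haveILetI false
set_option linter.unusedSectionVars false
set_option maxHeartbeats 1000000

open scoped commutatorElement

namespace Cfsg.Agent.H35.OddPush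

open Subgroup
open Cfsg.Agent
open Cfsg.Agent.H34 Cfsg.Agent.H34.Push
open Cfsg.Agent.H34.Para
open Cfsg.Agent.H34.Star

universe u

variable {G : Type u} [Group G] [Finite G] {p : ℕ} [Fact p.Prime] {T : Sylow p G} {M : Subgroup G}

/-- Offenders on `V` lie in the preimages of the components of the faithful image. -/
theorem offenders_le {H : Type u} [Group H] [Finite H] (R : SemiRep (vee p G) H) {r : ℕ} (hr : 1 ≤ r)
    (Eb : Fin r → Subgroup H) (hEP : ∀ i, Eb i ≤ R.π.range)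
    (hoff : ∀ X : Subgroup H, X ≤ R.π.range → (∀ a ∈ X, ∀ b ∈ X, a * b = b * a) → (∀ a ∈ X, a ^ p = 1) →
      Nat.card ↥R.θ.range ≤ Nat.card X * Nat.card ↥(R.θ.range ⊓ centralizer (X : Set H)) → X ≤ ⨆ i, Eb i) :
    ∀ X : Subgroup G, (∀ a ∈ X, ∀ b ∈ X, ⁅a, b⁆ ∈ cee p G) → (∀ a ∈ X, a ^ p ∈ cee p G) →
      Nat.card ↥(vee p G) ≤ (cee p G).relIndex X * Nat.card ↥(vee p G ⊓ centralizer (X : Set G)) →
      X ≤ ⨆ i, (Eb i).comap R.π := by
  haveI := H34.Push.vee_normal (G := G) (p := p)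
  intro X hcomm hexp hlarge
  have hV : Nat.card ↥R.θ.range = Nat.card ↥(vee p G) :=
    Nat.card_congr (MonoidHom.ofInjective R.inj).symm.toEquiv
  have hcen : R.θ.range ⊓ centralizer (X.map R.π : Set H) =
      ((vee p G ⊓ centralizer (X : Set G)).subgroupOf (vee p G)).map R.θ := by
    refine le_antisymm ?_ ?_
    · rintro _ ⟨⟨v, rfl⟩, hv⟩
      exact ⟨v, ⟨v.2, (R.cent_iff X v).1 hv⟩, rfl⟩
    · rintro _ ⟨v, hv, rfl⟩
      exact ⟨⟨v, rfl⟩, (R.cent_iff X v).2 hv.2⟩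
  have h1 := hoff (X.map R.π) (map_le_range _ _) (by
    rintro _ ⟨a, ha, rfl⟩ _ ⟨b, hb, rfl⟩
    rw [← commutatorElement_eq_one_iff_mul_comm, ← map_commutatorElement, ← MonoidHom.mem_ker, R.ker]
    exact hcomm a ha b hb) (by
    rintro _ ⟨a, ha, rfl⟩
    rw [← map_pow, ← MonoidHom.mem_ker, R.ker]
    exact hexp a ha) (by
    rw [hV, hcen, card_map_of_injective R.inj, Nat.card_congr (subgroupOfEquivOfLe inf_le_left).toEquiv,
      ← relIndex_ker, R.ker]
    exact hlarge)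
  have hker : R.π.ker ≤ ⨆ i, (Eb i).comap R.π :=
    (ker_le_comap R.π (Eb ⟨0, hr⟩)).trans (le_iSup (fun i => (Eb i).comap R.π) _)
  rw [← comap_map_eq_self hker, Subgroup.map_iSup]
  refine (map_le_iff_le_comap.1 h1).trans (comap_mono (iSup_mono fun i => ?_))
  exact (map_comap_eq_self (hEP i)).ge

/-- The components, with every offender on `V` inside their join (`Ctx.exists_case` with this addition). -/
theorem exists_case_offenders (hc : Ctx T M) :
    ∃ (r : ℕ) (E : Fin r → Subgroup G),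
      ((∃ (F : Type) (_ : Field F) (_ : Fintype F) (n : ℕ), LinCase T E F n) ∨ ∃ n, SymCase T E n) ∧
      ∀ X : Subgroup G, (∀ a ∈ X, ∀ b ∈ X, ⁅a, b⁆ ∈ cee p G) → (∀ a ∈ X, a ^ p ∈ cee p G) →
        Nat.card ↥(vee p G) ≤ (cee p G).relIndex X * Nat.card ↥(vee p G ⊓ centralizer (X : Set G)) →
        X ≤ ⨆ i, E i := by
  classical
  haveI := vee_normal (G := G) (p := p)
  let R := semiRep (vee p G)
  have h := ffp_of_rep hc.pmin hc.hM hc.hTM hc.charp hc.starstar_ne rfl R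
  obtain ⟨A, hA, hAC⟩ := exists_max_moving hc.pmin hc.hM hc.hTM hc.charp hc.starstar_ne
  haveI : (Cfsg.thompsonSubgroup p G).Normal :=
    haveI := thompsonSubgroup_characteristic (p := p) (G := G); inferInstance
  obtain ⟨hAc, hAe, hAl⟩ := max_image_large rfl R hA
  have hAne : A.map R.π ≠ ⊥ := by
    rw [Ne, Subgroup.map_eq_bot_iff, R.ker]
    exact hAC
  obtain ⟨A₀, hA₀A, hA₀⟩ := exists_minOff (p := p) (V := R.θ.range) (P := A.map R.π) le_rfl hAne hAc hAe hAl
  have hA₀P : A₀ ≤ R.π.range := hA₀A.trans (map_le_range _ _)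
  have hA₀J : A₀ ≤ (Cfsg.thompsonSubgroup p G).map R.π := hA₀A.trans (map_mono (le_sSup hA))
  have hJgen : ∀ {r : ℕ} (Eb : Fin r → Subgroup (Equiv.Perm ↥(vee p G))),
      (∀ i, Eb i ≤ closure {g | ∃ X, Mem R.π.range A₀ X ∧ g ∈ X}) →
      (∀ X : Subgroup (Equiv.Perm ↥(vee p G)), X ≤ R.π.range → (∀ a ∈ X, ∀ b ∈ X, a * b = b * a) →
        (∀ a ∈ X, a ^ p = 1) →
        Nat.card ↥R.θ.range ≤ Nat.card X * Nat.card ↥(R.θ.range ⊓ centralizer (X : Set (Equiv.Perm ↥(vee p G)))) →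
        X ≤ ⨆ i, Eb i) →
      (⨆ i, Eb i) = (Cfsg.thompsonSubgroup p G).map R.π := by
    intro r Eb hmem hoff
    refine le_antisymm (iSup_le fun i => (hmem i).trans ((closure_le _).2 ?_)) ?_
    · rintro x ⟨X, ⟨_, ⟨g, rfl⟩, rfl⟩, hx⟩
      obtain ⟨a, ha, rfl⟩ := hx
      obtain ⟨j, hj, rfl⟩ := hA₀J ha
      exact ⟨g * j * g⁻¹, Normal.conj_mem inferInstance _ hj g, by simp⟩
    · refine map_le_iff_le_comap.2 (sSup_le fun B hB => map_le_iff_le_comap.1 ?_)
      obtain ⟨hBc, hBe, hBl⟩ := max_image_large rfl R hB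
      exact hoff _ (map_le_range _ _) hBc hBe hBl
  by_cases hq : 3 ≤ Nat.card ↥A₀
  · obtain ⟨r, Eb, hr, hEP, hcomm, hdirect, hsup, hconj, hperm, hmem, hdec, hcross, hper⟩ :=
      exists_components_large' h hA₀P hA₀ hq
    obtain ⟨n, hn, F, iF, iF', hF, hiso, hact⟩ := hper ⟨0, hr⟩
    have hJ := hJgen Eb hmem fun X hXP hXc hXe hl =>
      offender_mem_sl2 h hEP hcomm hdirect hsup hconj hperm hdec hcross ⟨0, hr⟩ hn hF hiso hact hXP hXc hXe hl
    have hcomps := comps_of_image R hr Eb hEP hcomm hdirect hsup hconj hperm hdec hcross hJ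
    refine ⟨r, _, Or.inl ⟨F, iF, iF', n, hcomps, hn, hF, fun i => ?_⟩,
      offenders_le R hr Eb hEP fun X hXP hXc hXe hl =>
        offender_mem_sl2 h hEP hcomm hdirect hsup hconj hperm hdec hcross ⟨0, hr⟩ hn hF hiso hact hXP hXc hXe hl⟩
    have hEmap : ((Eb ⟨0, hr⟩).comap R.π).map R.π = Eb ⟨0, hr⟩ := map_comap_eq_self (hEP _)
    rw [← hEmap] at hiso hact
    obtain ⟨ρ, ψ, hrep⟩ := LinRep.exists_of_acts (R.quot_iso _ hiso) (R.acts_sl2 _ hact)
    obtain ⟨t, -, ht⟩ := hcomps.trans ⟨0, hr⟩ i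
    exact hrep.conj t ht
  · obtain ⟨a, ha, ha1⟩ := (bot_or_exists_ne_one A₀).resolve_left hA₀.ne
    have hdvd : p ∣ Nat.card ↥A₀ := by
      have e2 := orderOf_dvd_natCard (⟨a, ha⟩ : ↥A₀)
      rwa [orderOf_mk, orderOf_eq_prime (hA₀.expA a ha) ha1] at e2
    have hle := Nat.le_of_dvd Nat.card_pos hdvd
    have h2 := (Fact.out : p.Prime).two_le
    obtain rfl : p = 2 := by omega
    have hq2 : Nat.card ↥A₀ = 2 := by omega
    letI : CommGroup ↥R.θ.range :=
      { (inferInstance : Group ↥R.θ.range) with mul_comm := fun x y => Subtype.ext (h.comm x x.2 y y.2) }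
    let e : Additive ↥R.θ.range ≃+ Additive ↥R.θ.range := AddEquiv.refl _
    obtain ⟨S, hctr, hphi⟩ := exists_ts h e hA₀P hA₀
    have Re : Real h e A₀ S := ⟨hA₀P, hA₀, hctr, hphi⟩
    obtain ⟨n, F₀, hn, hF₀, hFM, -⟩ := exists_closed_frame h e Re hq2
    obtain ⟨-, r, Eb, hr, hEP, hcomm, hdirect, hsup, hconj, hperm, hmem, hdec, hcross, hper⟩ :=
      components_of_frame h e Re F₀ hn hF₀ hFM
    obtain ⟨m, hm, hiso, hact⟩ := hper ⟨0, hr⟩
    have hpow : 2 ≤ 2 ^ m := le_self_pow₀ (by norm_num) (by omega)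
    have hodd : ((2 ^ m + 1 : ℕ) : ZMod 2) = 1 := by
      rw [Nat.cast_add, Nat.cast_pow, show ((2 : ℕ) : ZMod 2) = 0 from rfl, zero_pow (by omega : m ≠ 0),
        zero_add, Nat.cast_one]
    have hJ := hJgen Eb hmem fun X hXP hXc hXe hl =>
      offender_mem_perm h hEP hcomm hdirect hsup hconj hperm hdec hcross ⟨0, hr⟩ (n := 2 ^ m + 1)
        (by omega) hodd hiso hact hXP hXc hXe hl
    have hcomps := comps_of_image R hr Eb hEP hcomm hdirect hsup hconj hperm hdec hcross hJ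
    have hEmap : ((Eb ⟨0, hr⟩).comap R.π).map R.π = Eb ⟨0, hr⟩ := map_comap_eq_self (hEP _)
    have hiso₀ := hiso
    have hact₀ := hact
    rw [← hEmap] at hiso hact
    obtain ⟨ρ, ψ, hs, hk, hev, hon, hψk, hρa⟩ :=
      exists_perm_of_acts (m := 2 ^ m + 1) (by omega) (R.quot_iso _ hiso) (R.acts_perm _ hact)
    -- all components carry representations of the same degree
    have hall : ∀ i, ∃ (ρ : ↥((Eb i).comap R.π) →* Equiv.Perm (Fin (2 ^ m + 1)))
        (ψ : ↥⁅vee 2 G, (Eb i).comap R.π⁆ →* Multiplicative (Fin (2 ^ m + 1) → ZMod 2)),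
        Function.Surjective ρ ∧ (∀ e, ρ e = 1 ↔ (e : G) ∈ cee 2 G) ∧
        (∀ u, ∑ a, Multiplicative.toAdd (ψ u) a = 0) ∧
        (∀ v : Fin (2 ^ m + 1) → ZMod 2, ∑ a, v a = 0 → ∃ u, Multiplicative.toAdd (ψ u) = v) ∧
        (∀ u, ψ u = 1 ↔ (u : G) ∈ centralizer (((Eb i).comap R.π : Subgroup G) : Set G)) ∧
        ∀ (e : ↥((Eb i).comap R.π)) (u w : ↥⁅vee 2 G, (Eb i).comap R.π⁆),
          (w : G) = (e : G) * (u : G) * (e : G)⁻¹ →
          ∀ a, Multiplicative.toAdd (ψ w) a = Multiplicative.toAdd (ψ u) ((ρ e)⁻¹ a) := by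
      intro i
      obtain ⟨t, -, ht⟩ := hcomps.trans ⟨0, hr⟩ i
      obtain ⟨hE, hU, hC⟩ := conj_pair (p := 2) t ht
      haveI := cee_normal (G := G) (p := 2)
      let τ : ↥((Eb i).comap R.π) →* ↥((Eb ⟨0, hr⟩).comap R.π) :=
        MonoidHom.mk' (fun x => ⟨t⁻¹ * x * t, (hE x).1 x.2⟩) (fun a b => Subtype.ext (by simp [mul_assoc]))
      let σ : ↥⁅vee 2 G, (Eb i).comap R.π⁆ →* ↥⁅vee 2 G, (Eb ⟨0, hr⟩).comap R.π⁆ :=
        MonoidHom.mk' (fun x => ⟨t⁻¹ * x * t, (hU x).1 x.2⟩) (fun a b => Subtype.ext (by simp [mul_assoc]))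
      have hτ : Function.Surjective τ := fun e =>
        ⟨⟨t * e * t⁻¹, (hE _).2 (by simp [mul_assoc])⟩, Subtype.ext (by simp [τ, mul_assoc])⟩
      have hσ : Function.Surjective σ := fun u =>
        ⟨⟨t * u * t⁻¹, (hU _).2 (by simp [mul_assoc])⟩, Subtype.ext (by simp [σ, mul_assoc])⟩
      refine ⟨ρ.comp τ, ψ.comp σ, hs.comp hτ, fun e => (hk _).trans ?_, fun u => hev _, fun v hv => ?_,
        fun u => (hψk _).trans (hC u).symm, fun e u w hw => hρa (τ e) (σ u) (σ w) ?_⟩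
      · exact ⟨fun h1 => by simpa [τ, mul_assoc] using Normal.conj_mem inferInstance _ h1 t,
          fun h1 => by simpa [τ, mul_assoc] using Normal.conj_mem inferInstance _ h1 t⁻¹⟩
      · obtain ⟨u, hu⟩ := hon v hv
        obtain ⟨u', rfl⟩ := hσ u
        exact ⟨u', hu⟩
      · simp [σ, τ, hw, mul_assoc]
    -- the minimal offender is one transvection
    obtain ⟨g, hgA, hga⟩ := (hA₀A ha : a ∈ A.map R.π)
    have hgJ : g ∈ ⨆ i, (Eb i).comap R.π := hcomps.sup.ge (mem_sup_left ((le_sSup hA : A ≤ _) hgA))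
    have hgC : g ∉ cee 2 G := by
      show g ∉ centralizer (vee 2 G : Set G)
      rw [← R.ker, MonoidHom.mem_ker, hga]
      exact ha1
    have hg2 : g * g ∈ cee 2 G := by
      show g * g ∈ centralizer (vee 2 G : Set G)
      rw [← R.ker, MonoidHom.mem_ker, map_mul, hga, ← sq, hA₀.expA a ha]
    have hz : zpowers a = A₀ := eq_of_le_of_card_ge (zpowers_le.2 ha)
      (by rw [Nat.card_zpowers, orderOf_eq_prime (hA₀.expA a ha) ha1, hq2])
    have hcard := h.card_eq hA₀P hA₀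
    have hcen : R.θ.range ⊓ centralizer (A₀ : Set (Equiv.Perm ↥(vee 2 G))) =
        ((vee 2 G ⊓ centralizer ({g} : Set G)).subgroupOf (vee 2 G)).map R.θ := by
      rw [← hz, ← hga, ← MonoidHom.map_zpowers]
      refine le_antisymm ?_ ?_
      · rintro _ ⟨⟨v, rfl⟩, hv⟩
        exact ⟨v, ⟨v.2, centralizer_le (Set.singleton_subset_iff.2 (mem_zpowers g))
          ((R.cent_iff _ v).1 hv)⟩, rfl⟩
      · rintro _ ⟨v, hv, rfl⟩
        refine ⟨⟨v, rfl⟩, (R.cent_iff _ v).2 (le_centralizer_iff.1 (zpowers_le.2 ?_) (mem_zpowers (v : G)))⟩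
        exact mem_centralizer_iff.2 fun x hx => by
          obtain ⟨k, rfl⟩ := mem_zpowers_iff.1 hx
          exact ((show Commute (v : G) g from mem_centralizer_singleton_iff.1 hv.2).zpow_left k).eq
    have hidx : (vee 2 G ⊓ centralizer ({g} : Set G)).relIndex (vee 2 G) = 2 := by
      rw [hq2, hcen, card_map_of_injective R.inj, Nat.card_congr (MonoidHom.ofInjective R.inj).symm.toEquiv]
        at hcard
      have e1 := ((vee 2 G ⊓ centralizer ({g} : Set G)).subgroupOf (vee 2 G)).card_mul_index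
      rw [hcard, mul_comm] at e1
      exact Nat.eq_of_mul_eq_mul_right Nat.card_pos e1
    obtain ⟨i₁, ρ₁, ψ₁, hrep⟩ := exists_transposition hcomps (m := 2 ^ m + 1) (by omega) hodd hall hgJ hgC hg2 hidx
    refine ⟨r, _, Or.inr ⟨m, hcomps, rfl, hm, fun i => ?_⟩,
      offenders_le R hr Eb hEP fun X hXP hXc hXe hl =>
        offender_mem_perm h hEP hcomm hdirect hsup hconj hperm hdec hcross ⟨0, hr⟩ (n := 2 ^ m + 1)
          (by omega) hodd hiso₀ hact₀ hXP hXc hXe hl⟩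
    obtain ⟨t, -, ht⟩ := hcomps.trans i₁ i
    exact hrep.conj t ht

end Cfsg.Agent.H35.OddPush
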