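import Cfsg.Agent.H85.Push.SL2Facts
import Mathlib

/-!
Maps of the plane commuting with the stabiliser of a vector.
-/

set_option autoImplicit false
set_option linter.style.haveILetI false

namespace Cfsg.Agent.H35.OddPush

open Matrix
open Cfsg.Agent.H85.Push (stab mem_stab exists_to)

variable {F : Type*} [Field F]

local notation "SL" => Matrix.SpecialLinearGroup (Fin 2) F

theorem inv_mulVec (g : SL) (w : Fin 2 → F) :
    ((g⁻¹ : SL) : Matrix (Fin 2) (Fin 2) F) *ᵥ ((g : Matrix (Fin 2) (Fin 2) F) *ᵥ w) = w := by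
  rw [mulVec_mulVec, ← Matrix.SpecialLinearGroup.coe_mul, inv_mul_cancel, Matrix.SpecialLinearGroup.coe_one,
    one_mulVec]

theorem mulVec_inv (g : SL) (w : Fin 2 → F) :
    (g : Matrix (Fin 2) (Fin 2) F) *ᵥ (((g⁻¹ : SL) : Matrix (Fin 2) (Fin 2) F) *ᵥ w) = w := by
  rw [mulVec_mulVec, ← Matrix.SpecialLinearGroup.coe_mul, mul_inv_cancel, Matrix.SpecialLinearGroup.coe_one,
    one_mulVec]

theorem conj_mulVec (g s : SL) (w : Fin 2 → F) :
    ((g * s * g⁻¹ : SL) : Matrix (Fin 2) (Fin 2) F) *ᵥ ((g : Matrix (Fin 2) (Fin 2) F) *ᵥ w) =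
      (g : Matrix (Fin 2) (Fin 2) F) *ᵥ ((s : Matrix (Fin 2) (Fin 2) F) *ᵥ w) := by
  rw [Matrix.SpecialLinearGroup.coe_mul, ← mulVec_mulVec, inv_mulVec, Matrix.SpecialLinearGroup.coe_mul,
    ← mulVec_mulVec]

/-- The transvection along the first axis. -/
def trans1 (c : F) : SL := ⟨!![1, c; 0, 1], by simp [det_fin_two]⟩

/-- A quarter turn. -/
def turn : SL := ⟨!![0, 1; -1, 0], by simp [det_fin_two]⟩

theorem trans1_mulVec (c a b : F) :
    ((trans1 c : SL) : Matrix (Fin 2) (Fin 2) F) *ᵥ ![a, b] = ![a + c * b, b] := by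
  funext i; fin_cases i <;> simp [trans1, mulVec, dotProduct, Fin.sum_univ_two]

theorem turn_mulVec (a b : F) : ((turn : SL) : Matrix (Fin 2) (Fin 2) F) *ᵥ ![a, b] = ![b, -a] := by
  funext i; fin_cases i <;> simp [turn, mulVec, dotProduct, Fin.sum_univ_two]

theorem vec_eta (w : Fin 2 → F) : w = ![w 0, w 1] := by
  funext i; fin_cases i <;> simp

theorem vec_add (a b c d : F) : (![a, b] : Fin 2 → F) + ![c, d] = ![a + c, b + d] := by
  funext i; fin_cases i <;> simp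

/-- The stabiliser of a vector moves some vector by any given multiple of it. -/
theorem exists_move {v : Fin 2 → F} (hv : v ≠ 0) (c : F) :
    ∃ (t : SL) (w : Fin 2 → F), t ∈ stab v ∧ (t : Matrix (Fin 2) (Fin 2) F) *ᵥ w = w + c • v := by
  obtain ⟨g, hg⟩ := exists_to v hv
  refine ⟨g * trans1 c * g⁻¹, (g : Matrix (Fin 2) (Fin 2) F) *ᵥ ![0, 1], ?_, ?_⟩
  · rw [mem_stab, ← hg, conj_mulVec, trans1_mulVec]
    simp
  · rw [conj_mulVec, trans1_mulVec, ← hg, ← mulVec_smul, ← mulVec_add]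
    congr 1
    funext i; fin_cases i <;> simp

/-- An additive map fixing the line through `v` pointwise, commuting with its stabiliser and permuting the linear
maps is the action of an element of the stabiliser. -/
theorem exists_mem_stab {v : Fin 2 → F} (hv : v ≠ 0) (φ : (Fin 2 → F) → (Fin 2 → F))
    (hadd : ∀ a b, φ (a + b) = φ a + φ b) (hline : ∀ c : F, φ (c • v) = c • v)
    (hcomm : ∀ t ∈ stab v, ∀ w, φ ((t : Matrix (Fin 2) (Fin 2) F) *ᵥ w) =
      (t : Matrix (Fin 2) (Fin 2) F) *ᵥ φ w)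
    (hnorm : ∀ s : SL, ∃ s' : SL, ∀ w, φ ((s : Matrix (Fin 2) (Fin 2) F) *ᵥ w) =
      (s' : Matrix (Fin 2) (Fin 2) F) *ᵥ φ w) :
    ∃ t ∈ stab v, ∀ w, φ w = (t : Matrix (Fin 2) (Fin 2) F) *ᵥ w := by
  obtain ⟨g, hg⟩ := exists_to v hv
  let ψ : (Fin 2 → F) → (Fin 2 → F) := fun w =>
    ((g⁻¹ : SL) : Matrix (Fin 2) (Fin 2) F) *ᵥ φ ((g : Matrix (Fin 2) (Fin 2) F) *ᵥ w)
  have hψφ : ∀ w, (g : Matrix (Fin 2) (Fin 2) F) *ᵥ ψ w = φ ((g : Matrix (Fin 2) (Fin 2) F) *ᵥ w) :=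
    fun w => mulVec_inv g _
  have hψadd : ∀ a b, ψ (a + b) = ψ a + ψ b := fun a b => by
    simp only [ψ, mulVec_add, hadd]
  have hψline : ∀ c : F, ψ ![c, 0] = ![c, 0] := fun c => by
    have e : (g : Matrix (Fin 2) (Fin 2) F) *ᵥ ![c, 0] = c • v := by
      rw [← hg, ← mulVec_smul]
      congr 1
      funext i; fin_cases i <;> simp
    simp only [ψ, e, hline]
    rw [← e, inv_mulVec]
  have hψcomm : ∀ c w, ψ (((trans1 c : SL) : Matrix (Fin 2) (Fin 2) F) *ᵥ w) =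
      ((trans1 c : SL) : Matrix (Fin 2) (Fin 2) F) *ᵥ ψ w := fun c w => by
    apply Cfsg.Agent.H85.Push.mulVec_injective g
    show (g : Matrix (Fin 2) (Fin 2) F) *ᵥ _ = (g : Matrix (Fin 2) (Fin 2) F) *ᵥ _
    rw [hψφ, ← conj_mulVec g (trans1 c), ← conj_mulVec g (trans1 c) (ψ w), hψφ]
    refine hcomm _ ?_ _
    rw [mem_stab, ← hg, conj_mulVec, trans1_mulVec]
    simp
  obtain ⟨s', hs'⟩ := hnorm (g * turn * g⁻¹)
  set u : SL := g⁻¹ * s' * g with hu
  have hψturn : ∀ w, ψ (((turn : SL) : Matrix (Fin 2) (Fin 2) F) *ᵥ w) =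
      (u : Matrix (Fin 2) (Fin 2) F) *ᵥ ψ w := fun w => by
    apply Cfsg.Agent.H85.Push.mulVec_injective g
    show (g : Matrix (Fin 2) (Fin 2) F) *ᵥ _ = (g : Matrix (Fin 2) (Fin 2) F) *ᵥ _
    rw [← conj_mulVec g u (ψ w), hψφ, ← conj_mulVec g turn, hψφ, hs']
    have e : g * u * g⁻¹ = s' := by
      rw [hu]
      simp only [mul_assoc, mul_inv_cancel, mul_one, mul_inv_cancel_left]
    rw [e]
  -- the second coordinate is preserved
  have hsplit : ∀ a b, ψ ![a, b] = ![a, 0] + ψ ![0, b] := fun a b => by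
    rw [← hψline a, ← hψadd, vec_add, add_zero, zero_add]
  have hg1 : ψ ![0, 1] 1 = 1 := by
    have e := congrFun (hψcomm 1 ![0, 1]) 0
    rw [trans1_mulVec, hsplit, vec_eta (ψ ![0, 1]), trans1_mulVec] at e
    simp at e
    exact (e.trans (add_comm _ _) |> add_right_cancel).symm
  have hsnd : ∀ b, ψ ![0, b] 1 = b := fun b => by
    have e := congrFun (hψcomm 1 ![0, b]) 0
    rw [trans1_mulVec, hsplit, vec_eta (ψ ![0, b]), trans1_mulVec] at e
    simp at e
    exact (e.trans (add_comm _ _) |> add_right_cancel).symm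
  -- the first coordinate is linear
  have hlin : ∀ b, ψ ![0, b] 0 = (-(u : Matrix (Fin 2) (Fin 2) F) 0 0) * b := by
    intro b
    have e := hψturn ![-b, 0]
    rw [turn_mulVec, hψline, neg_neg] at e
    have e0 := congrFun e 0
    simp [mulVec, dotProduct, Fin.sum_univ_two] at e0
    rw [e0]; ring
  set β := -(u : Matrix (Fin 2) (Fin 2) F) 0 0 with hβ
  have hψeq : ∀ w, ψ w = ((trans1 β : SL) : Matrix (Fin 2) (Fin 2) F) *ᵥ w := fun w => by
    rw [vec_eta w, hsplit, vec_eta (ψ ![0, w 1]), hlin, hsnd, vec_add, trans1_mulVec, zero_add]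
  refine ⟨g * trans1 β * g⁻¹, ?_, fun w => ?_⟩
  · rw [mem_stab, ← hg, conj_mulVec, trans1_mulVec]
    simp
  · have e := conj_mulVec g (trans1 β) (((g⁻¹ : SL) : Matrix (Fin 2) (Fin 2) F) *ᵥ w)
    rw [mulVec_inv] at e
    rw [e, ← hψeq, hψφ, mulVec_inv]

end Cfsg.Agent.H35.OddPush
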