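import Cfsg.Agent.H35.OddPush.Spec
import Cfsg.Agent.H35.OddPush.LinMaps
import Cfsg.Agent.H85.Push.LinImages
import Mathlib

/-!
The exactly offending normal subgroups of the Sylow 2-subgroup in the linear case.
-/

set_option autoImplicit false
set_option linter.style.haveILetI false
set_option linter.unusedSectionVars false
set_option maxHeartbeats 1000000

open scoped commutatorElement

namespace Cfsg.Agent.H35.OddPush

open Subgroup Matrix
open Cfsg.Agent
open Cfsg.Agent.H34.Push (vee cee Ctx Comps LinCase)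
open Cfsg.Agent.H85.Push

universe u

variable {G : Type u} [Group G] [Finite G] {T : Sylow 2 G} {M : Subgroup G}
variable {r : ℕ} {E : Fin r → Subgroup G} {F : Type} [Field F] [Fintype F] {n : ℕ}
variable {θ : Fin r → (↥(vee 2 G) →* Multiplicative (Fin 2 → F))}
  {π : Fin r → (↥(⨆ i, E i) →* Matrix.SpecialLinearGroup (Fin 2) F)} {v : Fin r → Fin 2 → F}

theorem two_eq_zero (h : LinCase T E F n) : (2 : F) = 0 := by
  have h0 : (Fintype.card F : F) = 0 := FiniteField.cast_card_eq_zero F
  rw [h.card, Nat.cast_pow] at h0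
  exact_mod_cast eq_zero_of_pow_eq_zero h0

/-- A vector of `V` centralised by `O²(G)` has trivial coordinates. -/
theorem coord_eq_one (co : Coords T E F θ π) (h : LinCase T E F n) {w : ↥(vee 2 G)}
    (hw : (w : G) ∈ oddCent G) (i : Fin r) : θ i w = 1 := by
  let s : Matrix.SpecialLinearGroup (Fin 2) F := ⟨!![0, -1; 1, -1], by simp [det_fin_two]⟩
  have hs : s ^ 3 = 1 := by
    rw [pow_succ, pow_two]
    refine Subtype.ext ?_
    show !![(0 : F), -1; 1, -1] * !![(0 : F), -1; 1, -1] * !![(0 : F), -1; 1, -1] = 1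
    ext a b
    fin_cases a <;> fin_cases b <;> simp [Matrix.mul_apply, Fin.sum_univ_two]
  obtain ⟨x, hx, hxs⟩ := co.πsurj i s
  obtain ⟨k, hk⟩ := H22.exists_pow_mem_pResidual (p := 2) (x : G)
  have hmem : ((x ^ (4 ^ k) : ↥(⨆ i, E i)) : G) ∈ Cfsg.pResidual 2 G := by
    rw [coe_pow, show 4 ^ k = 2 ^ k * 2 ^ k by rw [← mul_pow]; norm_num, pow_mul]
    exact pow_mem hk _
  have hπ : π i (x ^ (4 ^ k)) = s := by
    rw [map_pow, hxs, ← Nat.div_add_mod (4 ^ k) 3, pow_add, pow_mul, hs, one_pow, one_mul,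
      Nat.pow_mod, show 4 % 3 = 1 from rfl, one_pow, show 1 % 3 = 1 from rfl, pow_one]
  have hfix : (((x ^ (4 ^ k) : ↥(⨆ i, E i)) : G)) * (w : G) * ((x ^ (4 ^ k) : ↥(⨆ i, E i)) : G)⁻¹ = w := by
    rw [mem_centralizer_iff.1 hw _ hmem, mul_inv_cancel_right]
  have e := co.act i (x ^ (4 ^ k)) w w hfix.symm
  rw [hπ] at e
  have e0 := congrFun e 0
  have e1 := congrFun e 1
  simp [s, mulVec, dotProduct, Fin.sum_univ_two] at e0 e1
  have h3 : (3 : F) * Multiplicative.toAdd (θ i w) 1 = 0 := by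
    linear_combination e1 + e0
  rw [show (3 : F) = 1 by linear_combination two_eq_zero h, one_mul] at h3
  refine Multiplicative.toAdd.injective (funext fun a => ?_)
  fin_cases a
  · simp [e0, h3]
  · simpa using h3

/-- Vectors with trivial coordinates are centralised by `O²(G)`. -/
theorem mem_oddCent_of_coord (co : Coords T E F θ π) (h : Comps T E) {w : ↥(vee 2 G)}
    (hw : ∀ i, θ i w = 1) : (w : G) ∈ oddCent G :=
  star_cent_le_oddCent h (mem_cent_iSup fun i => (co.θker i w).1 (hw i))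

/-- A commutator with `V` is centralised by `O²(G)` exactly if all coordinates are fixed. -/
theorem comm_mem_iff (co : Coords T E F θ π) (h : LinCase T E F n) (x : ↥(⨆ i, E i)) (w : ↥(vee 2 G)) :
    ⁅(w : G), (x : G)⁆ ∈ oddCent G ↔
      ∀ i, (π i x : Matrix (Fin 2) (Fin 2) F) *ᵥ Multiplicative.toAdd (θ i w) =
        Multiplicative.toAdd (θ i w) := by
  haveI := OddPush.vee_normal (G := G)
  let c : ↥(vee 2 G) := ⟨x * w * (x : G)⁻¹, Normal.conj_mem inferInstance _ w.2 _⟩
  have hval : ((w * c⁻¹ : ↥(vee 2 G)) : G) = ⁅(w : G), (x : G)⁆ := by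
    rw [coe_mul, coe_inv, commutatorElement_def]
    show (w : G) * ((x : G) * w * (x : G)⁻¹)⁻¹ = _
    group
  rw [← hval]
  have hc : ∀ i, Multiplicative.toAdd (θ i (w * c⁻¹)) = Multiplicative.toAdd (θ i w) -
      (π i x : Matrix (Fin 2) (Fin 2) F) *ᵥ Multiplicative.toAdd (θ i w) := fun i => by
    rw [map_mul, map_inv, toAdd_mul, toAdd_inv, co.act i x w c rfl, sub_eq_add_neg]
  constructor
  · intro hm i
    have e := hc i
    rw [coord_eq_one co h hm i, toAdd_one, eq_comm, sub_eq_zero] at e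
    exact e.symm
  · intro hfix
    refine mem_oddCent_of_coord co h.toComps fun i => Multiplicative.toAdd.injective ?_
    rw [hc, hfix, sub_self, toAdd_one]

/-- An exactly offending normal subgroup has the full stabilisers of the lines as image. -/
theorem full_image (fr : Frame T E F θ π v) (hc : Ctx T M) (h : LinCase T E F n) (hoff : OffIn T E)
    {X : Subgroup G} (hX : Nbr T X) (f : Fin r → Matrix.SpecialLinearGroup (Fin 2) F)
    (hf : ∀ i, f i ∈ stab (v i)) : ∃ x : ↥(⨆ i, E i), (x : G) ∈ X ∧ ∀ i, π i x = f i := by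
  classical
  haveI := OddPush.vee_normal (G := G)
  haveI := cee_normal (G := G) (p := 2)
  have hC := h.toComps
  have hAE := hoff X hX
  haveI := hX.elem.1
  let S : Fin r → Prop := fun i => ∃ a : ↥(⨆ i, E i), (a : G) ∈ X ∧ π i a ≠ 1
  let P := Subgroup.pi Set.univ fun i => if S i then stab (v i) else ⊥
  let Φ := Subgroup.pi Set.univ fun i => if S i then lineSub (v i) else (⊤ : Subgroup (Multiplicative (Fin 2 → F)))
  let D := Φ.comap (Pi.monoidHom θ)
  let I := (X.subgroupOf (⨆ i, E i)).map (Pi.monoidHom π)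
  have hθ : Function.Surjective (Pi.monoidHom θ) := fun f => by
    obtain ⟨x, hx⟩ := fr.θjoint f
    exact ⟨x, funext hx⟩
  have hIP : I ≤ P := by
    rintro _ ⟨a, ha, rfl⟩ i -
    by_cases hS : S i
    · simp only [hS, if_true]
      exact fr.img a (hX.le ha) i
    · simp only [hS, if_false, mem_bot]
      by_contra hne
      exact hS ⟨a, ha, hne⟩
  have hCD : (vee 2 G ⊓ centralizer (X : Set G)).subgroupOf (vee 2 G) ≤ D := by
    intro w hw i _
    by_cases hS : S i
    · simp only [hS, if_true]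
      obtain ⟨a, ha, hne⟩ := hS
      have hcm : (a : G) * (w : G) = (w : G) * a := mem_centralizer_iff.1 hw.2 a ha
      have e := fr.act i a w w (by rw [hcm, mul_inv_cancel_right])
      obtain ⟨c, hc'⟩ := exists_smul_of_fixed (fr.vne i) (fr.img a (hX.le ha) i) hne e.symm
      exact ⟨c, hc'⟩
    · simp only [hS, if_false]
      exact mem_top _
  have hPD : Nat.card ↥P * Nat.card ↥D = Nat.card ↥(vee 2 G) := by
    have h1 : Nat.card ↥P * Nat.card ↥Φ = Nat.card (Fin r → Multiplicative (Fin 2 → F)) := by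
      rw [card_pi, card_pi, ← Finset.prod_mul_distrib, Nat.card_pi]
      refine Finset.prod_congr rfl fun i _ => ?_
      have hc2 : Nat.card (Multiplicative (Fin 2 → F)) = Nat.card F * Nat.card F := by
        rw [Nat.card_congr Multiplicative.toAdd, Nat.card_fun, Nat.card_fin, sq]
      by_cases hS : S i
      · simp only [hS, if_true, card_stab (fr.vne i), card_lineSub (fr.vne i), hc2]
      · simp only [hS, if_false, card_bot, card_top, one_mul]
    have h2 : D.index = Φ.index := index_comap_of_surjective _ hθ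
    have h3 := D.card_mul_index
    have h4 := Φ.card_mul_index
    rw [h2] at h3
    have h6 : Nat.card ↥P = Φ.index := by
      refine Nat.eq_of_mul_eq_mul_right (Nat.card_pos (α := ↥Φ)) ?_
      rw [h1, ← h4, mul_comm]
    rw [h6, mul_comm, h3]
  have hI : Nat.card ↥I = (cee 2 G).relIndex X := by
    have hker : (Pi.monoidHom π).ker = (cee 2 G).subgroupOf (⨆ i, E i) := by
      ext x
      exact ⟨fun hx => fr.mem_cee hc hC fun i => congrFun hx i, fun hx => funext fun i => fr.πcee i x hx⟩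
    rw [← relIndex_ker, hker, relIndex_subgroupOf hAE]
  have hIeq : I = P := by
    refine eq_of_le_of_card_ge hIP (Nat.le_of_mul_le_mul_right ?_ (Nat.card_pos (α := ↥D)))
    rw [hPD, hX.exact_off, ← hI]
    refine Nat.mul_le_mul_left _ ?_
    rw [← Nat.card_congr (subgroupOfEquivOfLe (inf_le_left : vee 2 G ⊓ centralizer (X : Set G) ≤ vee 2 G)).toEquiv]
    exact card_le_of_le hCD
  -- all components are moved
  have hone : ∀ i, S i → ∀ s ∈ stab (v i), ∃ a : ↥(⨆ i, E i), (a : G) ∈ X ∧ π i a = s ∧ ∀ j, j ≠ i → π j a = 1 := by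
    intro i hS s hs
    have hmem : Pi.mulSingle i s ∈ P := fun j _ => by
      by_cases hji : j = i
      · subst hji
        simp only [Pi.mulSingle_eq_same, show S j from hS, if_true]
        exact hs
      · rw [Pi.mulSingle_eq_of_ne hji]; exact Subgroup.one_mem _
    obtain ⟨a, ha, hae⟩ := hIeq.ge hmem
    exact ⟨a, ha, (congrFun hae i).trans (Pi.mulSingle_eq_same _ _), fun j hji =>
      (congrFun hae j).trans (Pi.mulSingle_eq_of_ne hji _)⟩
  obtain ⟨i₀, hi₀⟩ : ∃ i, S i := by
    by_contra! hcon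
    refine hX.move fun a ha => fr.mem_cee hc hC (x := ⟨a, hAE ha⟩) fun i => ?_
    by_contra hne
    exact hcon i ⟨⟨a, hAE ha⟩, ha, hne⟩
  have hall : ∀ i, S i := by
    intro j
    obtain ⟨b, hb, hb1⟩ := hi₀
    obtain ⟨a, ha, hai, haj⟩ := hone i₀ ⟨b, hb, hb1⟩ _ (fr.img b (hX.le hb) i₀)
    obtain ⟨e, he, hes⟩ := fr.πsurj i₀ (π i₀ a)
    have haE : (a : G) ∈ E i₀ := by
      have h1 : (e : G)⁻¹ * a ∈ cee 2 G := fr.inv_mul_mem hc hC fun k => by
        by_cases hk : k = i₀
        · subst hk; exact hes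
        · rw [haj k hk, fr.πone k i₀ (Ne.symm hk) e he]
      rw [show (a : G) = (e : G) * ((e : G)⁻¹ * a) by group]
      exact mul_mem he (hC.cent_le i₀ h1)
    obtain ⟨t, ht, hte⟩ := hC.trans i₀ j
    have hmemX : t * (a : G) * t⁻¹ ∈ X := (mem_normalizer_iff.1 (hX.norm ht) _).1 ha
    have hmemE : t * (a : G) * t⁻¹ ∈ E j := hte.le (mem_map_of_mem _ haE)
    refine ⟨⟨_, hAE hmemX⟩, hmemX, fun e1 => hb1 ?_⟩
    have hC1 : t * (a : G) * t⁻¹ ∈ cee 2 G := fr.mem_cee hc hC (x := ⟨_, hAE hmemX⟩) fun k => by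
      by_cases hk : k = j
      · subst hk; exact e1
      · exact fr.πone k j (Ne.symm hk) _ hmemE
    have := Normal.conj_mem (inferInstance : (cee 2 G).Normal) _ hC1 t⁻¹
    rw [inv_inv, show t⁻¹ * (t * (a : G) * t⁻¹) * t = (a : G) by group] at this
    rw [← hai]
    exact fr.πcee i₀ a this
  obtain ⟨a, ha, hae⟩ := hIeq.ge (show f ∈ P from fun i _ => by simp only [hall i, if_true]; exact hf i)
  exact ⟨a, ha, fun i => congrFun hae i⟩

/-- The linear case. -/
theorem linCase (hc : Ctx T M) (h : LinCase T E F n) (hoff : OffIn T E) : Case T := by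
  classical
  obtain ⟨θ, π, v, fr⟩ := exists_frame h
  haveI := OddPush.vee_normal (G := G)
  haveI := cee_normal (G := G) (p := 2)
  haveI := H34.Push.pCore_normal' (G := G) (p := 2)
  have hC := h.toComps
  have hQT : Cfsg.pCore 2 G ≤ (T : Subgroup G) := H72.pCore_le_sylow T
  refine ⟨⟨(T : Subgroup G) ⊓ ⨆ i, E i, fun X hX => ?_⟩, fun X hX g hg => ?_, ?_⟩
  · refine le_antisymm (sup_le (le_inf hX.le (hoff X hX)) (le_inf hQT (pCore_le_star hC))) fun g hg => ?_
    obtain ⟨x, hx, hxf⟩ := full_image fr hc h hoff hX (fun i => π i ⟨g, hg.2⟩) fun i => fr.img ⟨g, hg.2⟩ hg.1 i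
    have hsmall : (x : G)⁻¹ * g ∈ Cfsg.pCore 2 G := by
      refine mem_core_of_small hc ((T : Subgroup G).mul_mem ((T : Subgroup G).inv_mem (hX.le hx)) hg.1) fun w hw => ?_
      refine (comm_mem_iff fr.toCoords h (x⁻¹ * ⟨g, hg.2⟩) ⟨w, hw⟩).2 fun i => ?_
      rw [map_mul, map_inv, hxf i, inv_mul_cancel, Matrix.SpecialLinearGroup.coe_one, one_mulVec]
    rw [show g = (x : G) * ((x : G)⁻¹ * g) by group]
    exact mul_mem (mem_sup_left hx) (mem_sup_right hsmall)
  · obtain ⟨hgT, hgX⟩ := hg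
    have hgx : ∀ x ∈ X, g * x * g⁻¹ = x := fun x hx => by
      rw [← mem_centralizer_iff.1 hgX x hx, mul_inv_cancel_right]
    -- `g` fixes every component
    have hgE : ∀ i, (E i).map (MulAut.conj g).toMonoidHom = E i := by
      intro i
      obtain ⟨j, hj⟩ := hC.perm g hgT i
      obtain ⟨t, w, ht, htw⟩ := exists_move (fr.vne i) (1 : F)
      obtain ⟨x, hx, hxf⟩ := full_image fr hc h hoff hX (Pi.mulSingle i t) fun k => by
        by_cases hk : k = i
        · subst hk; rw [Pi.mulSingle_eq_same]; exact ht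
        · rw [Pi.mulSingle_eq_of_ne hk]; exact one_mem _
      obtain ⟨e, he, hes⟩ := fr.πsurj i t
      have hxE : (x : G) ∈ E i := by
        have h1 : (e : G)⁻¹ * x ∈ cee 2 G := fr.inv_mul_mem hc hC fun k => by
          by_cases hk : k = i
          · subst hk; rw [hes, hxf, Pi.mulSingle_eq_same]
          · rw [hxf, Pi.mulSingle_eq_of_ne hk, fr.πone k i (Ne.symm hk) e he]
        rw [show (x : G) = (e : G) * ((e : G)⁻¹ * x) by group]
        exact mul_mem he (hC.cent_le i h1)
      by_cases hji : j = i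
      · rw [hj, hji]
      exfalso
      have hxj : (x : G) ∈ E j := hgx x hx ▸ hj.le (mem_map_of_mem _ hxE)
      have e1 := fr.πone i j hji x hxj
      rw [hxf, Pi.mulSingle_eq_same] at e1
      rw [e1, Matrix.SpecialLinearGroup.coe_one, one_mulVec, one_smul] at htw
      exact fr.vne i (left_eq_add.1 htw)
    have hgcent : ∀ i, ∀ z ∈ centralizer (E i : Set G), g * z * g⁻¹ ∈ centralizer (E i : Set G) := by
      intro i z hz
      refine mem_centralizer_iff.2 fun e he => ?_
      obtain ⟨d, hd, rfl⟩ := (hgE i).ge he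
      show g * d * g⁻¹ * (g * z * g⁻¹) = g * z * g⁻¹ * (g * d * g⁻¹)
      rw [show g * d * g⁻¹ * (g * z * g⁻¹) = g * (d * z) * g⁻¹ by group, mem_centralizer_iff.1 hz d hd]
      group
    -- the induced maps
    have hind : ∀ i, ∃ t ∈ stab (v i), ∀ w w' : ↥(vee 2 G), (w' : G) = g * (w : G) * g⁻¹ →
        Multiplicative.toAdd (θ i w') = (t : Matrix (Fin 2) (Fin 2) F) *ᵥ Multiplicative.toAdd (θ i w) := by
      intro i
      let cg : G → ↥(vee 2 G) → ↥(vee 2 G) := fun g w => ⟨g * w * g⁻¹, Normal.conj_mem inferInstance _ w.2 g⟩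
      let q : ↥(vee 2 G) → Fin 2 → F := fun w => Multiplicative.toAdd (θ i w)
      have hqs : Function.Surjective q := fun a => by
        obtain ⟨w, hw⟩ := fr.θsurj i (Multiplicative.ofAdd a)
        exact ⟨w, by show Multiplicative.toAdd (θ i w) = a; rw [hw]; rfl⟩
      choose Lf hLf using hqs
      have hqmul : ∀ a b, q (a * b) = q a + q b := fun a b => by
        show Multiplicative.toAdd (θ i (a * b)) = _
        rw [map_mul]; rfl
      have hwd : ∀ a b, q a = q b → q (cg g a) = q (cg g b) := by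
        intro a b e
        have hz : ((a⁻¹ * b : ↥(vee 2 G)) : G) ∈ centralizer (E i : Set G) := (fr.θker i _).1 (by
          rw [map_mul, map_inv, Multiplicative.toAdd.injective e, inv_mul_cancel])
        have h1 : θ i ((cg g a)⁻¹ * cg g b) = 1 := by
          rw [fr.θker]
          have := hgcent i _ hz
          rw [show ((((cg g a)⁻¹ * cg g b : ↥(vee 2 G))) : G) = g * ((a⁻¹ * b : ↥(vee 2 G)) : G) * g⁻¹ by
            simp [cg, mul_assoc]]
          exact this
        rw [map_mul, map_inv, inv_mul_eq_one] at h1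
        exact congrArg Multiplicative.toAdd h1
      let φ : (Fin 2 → F) → (Fin 2 → F) := fun a => q (cg g (Lf a))
      have hφ : ∀ w, q (cg g w) = φ (q w) := fun w => hwd _ _ (hLf _).symm
      obtain ⟨t, ht, hφt⟩ : ∃ t ∈ stab (v i), ∀ w, φ w = (t : Matrix (Fin 2) (Fin 2) F) *ᵥ w := by
        refine exists_mem_stab (fr.vne i) φ ?_ ?_ ?_ ?_
        · intro a b
          show q (cg g (Lf (a + b))) = q (cg g (Lf a)) + q (cg g (Lf b))
          rw [← hqmul, ← show cg g (Lf a * Lf b) = cg g (Lf a) * cg g (Lf b) from Subtype.ext (by simp [cg])]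
          exact hwd _ _ (by rw [hqmul, hLf, hLf, hLf])
        · -- the line is in `[V, X]`, which `g` centralises
          intro c
          obtain ⟨t, a, ht, hta⟩ := exists_move (fr.vne i) c
          obtain ⟨x, hx, hxf⟩ := full_image fr hc h hoff hX (Pi.mulSingle i t) fun k => by
            by_cases hk : k = i
            · subst hk; rw [Pi.mulSingle_eq_same]; exact ht
            · rw [Pi.mulSingle_eq_of_ne hk]; exact one_mem _
          let z : ↥(vee 2 G) := cg (x : G) (Lf a) * (Lf a)⁻¹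
          have hqz : q z = c • v i := by
            show Multiplicative.toAdd (θ i (cg (x : G) (Lf a) * (Lf a)⁻¹)) = _
            rw [map_mul, map_inv, toAdd_mul, toAdd_inv, fr.act i x (Lf a) _ rfl, hxf, Pi.mulSingle_eq_same,
              show Multiplicative.toAdd (θ i (Lf a)) = a from hLf a, hta, ← sub_eq_add_neg, add_sub_cancel_left]
          have hzX : (z : G) ∈ X := by
            show (x : G) * (Lf a : G) * (x : G)⁻¹ * (Lf a : G)⁻¹ ∈ X
            have hT : (Lf a : G) ∈ (T : Subgroup G) := hQT (H34.Push.vee_le_core (Lf a).2)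
            rw [show (x : G) * (Lf a : G) * (x : G)⁻¹ * (Lf a : G)⁻¹ =
              (x : G) * ((Lf a : G) * (x : G)⁻¹ * (Lf a : G)⁻¹) by group]
            exact mul_mem hx ((mem_normalizer_iff.1 (hX.norm hT) _).1 (inv_mem hx))
          rw [← hqz, ← hφ, show cg g z = z from Subtype.ext (hgx _ hzX)]
        · intro t ht a
          obtain ⟨x, hx, hxf⟩ := full_image fr hc h hoff hX (Pi.mulSingle i t) fun k => by
            by_cases hk : k = i
            · subst hk; rw [Pi.mulSingle_eq_same]; exact ht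
            · rw [Pi.mulSingle_eq_of_ne hk]; exact one_mem _
          have hcomm : cg g (cg (x : G) (Lf a)) = cg (x : G) (cg g (Lf a)) := Subtype.ext (by
            have hcx : (x : G) * g = g * x := mem_centralizer_iff.1 hgX x hx
            show g * ((x : G) * (Lf a : G) * (x : G)⁻¹) * g⁻¹ = (x : G) * (g * (Lf a : G) * g⁻¹) * (x : G)⁻¹
            calc g * ((x : G) * (Lf a : G) * (x : G)⁻¹) * g⁻¹ = (g * x) * (Lf a : G) * (g * x)⁻¹ := by group
              _ = ((x : G) * g) * (Lf a : G) * ((x : G) * g)⁻¹ := by rw [hcx]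
              _ = _ := by group)
          have e1 : q (cg (x : G) (Lf a)) = (t : Matrix (Fin 2) (Fin 2) F) *ᵥ a := by
            show Multiplicative.toAdd (θ i _) = _
            rw [fr.act i x (Lf a) _ rfl, hxf, Pi.mulSingle_eq_same,
              show Multiplicative.toAdd (θ i (Lf a)) = a from hLf a]
          rw [← e1, ← hφ, hcomm]
          show Multiplicative.toAdd (θ i _) = _
          rw [fr.act i x (cg g (Lf a)) _ rfl, hxf, Pi.mulSingle_eq_same]
        · intro s
          obtain ⟨e, he, hes⟩ := fr.πsurj i s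
          have hge : g * (e : G) * g⁻¹ ∈ E i := (hgE i).le (mem_map_of_mem _ he)
          refine ⟨π i ⟨_, le_iSup E i hge⟩, fun a => ?_⟩
          have e1 : q (cg (e : G) (Lf a)) = (s : Matrix (Fin 2) (Fin 2) F) *ᵥ a := by
            show Multiplicative.toAdd (θ i _) = _
            rw [fr.act i e (Lf a) _ rfl, hes, show Multiplicative.toAdd (θ i (Lf a)) = a from hLf a]
          have hcomm : cg g (cg (e : G) (Lf a)) = cg (g * e * g⁻¹) (cg g (Lf a)) :=
            Subtype.ext (by simp [cg, mul_assoc])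
          rw [← e1, ← hφ, hcomm]
          exact fr.act i ⟨_, le_iSup E i hge⟩ (cg g (Lf a)) _ rfl
      refine ⟨t, ht, fun w w' hw => ?_⟩
      rw [show w' = cg g w from Subtype.ext hw]
      exact (hφ w).trans (hφt _)
    choose t ht hact using hind
    obtain ⟨x, hx, hxf⟩ := full_image fr hc h hoff hX t ht
    have hsmall : (x : G)⁻¹ * g ∈ Cfsg.pCore 2 G := by
      refine mem_core_of_small hc ((T : Subgroup G).mul_mem ((T : Subgroup G).inv_mem (hX.le hx)) hgT) fun w hw => ?_
      let w₁ : ↥(vee 2 G) := ⟨g * w * g⁻¹, Normal.conj_mem inferInstance _ hw g⟩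
      let w₂ : ↥(vee 2 G) := ⟨(x : G)⁻¹ * w₁ * ((x : G)⁻¹)⁻¹, Normal.conj_mem inferInstance _ w₁.2 _⟩
      rw [show ⁅w, (x : G)⁻¹ * g⁆ = ((⟨w, hw⟩ * w₂⁻¹ : ↥(vee 2 G)) : G) by
        simp [w₂, w₁, commutatorElement_def, mul_assoc]]
      refine mem_oddCent_of_coord fr.toCoords hC fun i => Multiplicative.toAdd.injective ?_
      rw [map_mul, map_inv, toAdd_mul, toAdd_inv, fr.act i x⁻¹ w₁ w₂ rfl, hact i ⟨w, hw⟩ w₁ rfl, map_inv,
        hxf, inv_mulVec, add_neg_cancel, toAdd_one]
    rw [show g = (x : G) * ((x : G)⁻¹ * g) by group]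
    exact mul_mem (mem_sup_left hx) (mem_sup_right hsmall)
  · intro X hX x hx x' hx' w hw w' hw' h1 h2
    have hXE := hoff X hX
    refine (comm_mem_iff fr.toCoords h ⟨x', hXE hx'⟩ ⟨w, hw⟩).2 fun i => ?_
    by_cases hπ : π i ⟨x, hXE hx⟩ = 1
    · -- the second commutator has trivial coordinate
      let cw : ↥(vee 2 G) := ⟨x' * w * x'⁻¹, Normal.conj_mem inferInstance _ hw _⟩
      let cw' : ↥(vee 2 G) := ⟨x * w' * x⁻¹, Normal.conj_mem inferInstance _ hw' _⟩
      have hval : ((⟨w, hw⟩ * cw⁻¹ * (⟨w', hw'⟩ * cw'⁻¹) : ↥(vee 2 G)) : G) = ⁅w, x'⁆ * ⁅w', x⁆ := by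
        simp [cw, cw', commutatorElement_def, mul_assoc]
      have e := congrArg Multiplicative.toAdd (coord_eq_one fr.toCoords h (hval.symm ▸ h2) i)
      simp only [map_mul, map_inv, toAdd_mul, toAdd_inv] at e
      rw [
        fr.act i ⟨x', hXE hx'⟩ ⟨w, hw⟩ cw rfl, fr.act i ⟨x, hXE hx⟩ ⟨w', hw'⟩ cw' rfl, hπ,
        Matrix.SpecialLinearGroup.coe_one, one_mulVec, add_neg_cancel, add_zero, toAdd_one,
        ← sub_eq_add_neg, sub_eq_zero] at e
      exact e.symm
    · have e := (comm_mem_iff fr.toCoords h ⟨x, hXE hx⟩ ⟨w, hw⟩).1 h1 i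
      obtain ⟨c, hc'⟩ := exists_smul_of_fixed (fr.vne i) (fr.img ⟨x, hXE hx⟩ (hX.le hx) i) hπ e
      rw [hc', mulVec_smul, mem_stab.1 (fr.img ⟨x', hXE hx'⟩ (hX.le hx') i)]

end Cfsg.Agent.H35.OddPush
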