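import Cfsg.Agent.H35.OddPush.Argument
import Cfsg.Agent.H35.OddPush.Cases
import Cfsg.Agent.H35.OddPush.Lin
import Cfsg.Agent.H29.OddPush.SymCase
import Cfsg.Agent.H34.Push.Main
import Mathlib

/-!
Pushing up by odd automorphisms of the Sylow 2-subgroup: assembly.
-/

set_option autoImplicit false
set_option linter.style.haveILetI false
set_option linter.unusedSectionVars false
set_option maxHeartbeats 1000000

open scoped commutatorElement

namespace Cfsg.Agent.H35.OddPush

open Subgroup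
open Cfsg.Agent
open Cfsg.Agent.H34.Push (vee cee Ctx Comps Core RankSub SymCase LinCase GenData pee wee ell)

universe u

variable {G : Type u} [Group G] [Finite G] {T : Sylow 2 G} {M : Subgroup G}

/-- `[O₂(G), O²(G)] ≤ V`, from the data of one rank one subgroup. -/
theorem coreFacts {r : ℕ} {E : Fin r → Subgroup G} (hc : Ctx T M) (co : Core T E) {F : Type} [Field F]
    [Fintype F] {n : ℕ} {R : Subgroup G} (hR : RankSub T F n R) : CoreFacts G := by
  have hB := hc.rankBlock_of co hR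
  haveI := OddPush.vee_normal (G := G)
  haveI := H34.Push.pCore_normal' (G := G) (p := 2)
  haveI := H34.Push.wee_normal (T := T)
  haveI := H34.Push.pee_normal (T := T)
  set L := Cfsg.pResidual 2 G with hL
  set Q := Cfsg.pCore 2 G with hQ
  have hLell : L ≤ ell 2 (T : Subgroup G) := hR.residual_le_ell hB
  have h1 : ⁅Q, L⁆ ≤ pee 2 (T : Subgroup G) := by
    rw [← co.L_core]
    exact le_inf ((commutator_mono le_rfl hLell).trans (by
      haveI : (ell 2 (T : Subgroup G)).Normal := H34.Push.ell_normal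
      exact commutator_le_right _ _)) (commutator_le_left _ _)
  have h2 : ⁅pee 2 (T : Subgroup G), L⁆ ≤ wee 2 (T : Subgroup G) := hB.comm_pee_residual rfl
  have h3 : ⁅wee 2 (T : Subgroup G), L⁆ ≤ vee 2 G := by
    rw [commutator_comm, co.W_split, sup_eq_iSup]
    refine H34.Push.commutator_le_of_cover fun b => ?_
    cases b
    · show ⁅L, wee 2 (T : Subgroup G) ⊓ centralizer (ell 2 (T : Subgroup G) : Set G)⁆ ≤ vee 2 G
      exact le_of_eq_of_le (commutator_eq_bot_iff_le_centralizer.2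
        (hLell.trans (le_centralizer_iff.1 inf_le_right))) bot_le
    · show ⁅L, vee 2 G⁆ ≤ vee 2 G
      exact commutator_le_right _ _
  refine ⟨?_⟩
  have hgen : L ≤ ⨆ e : {e : G // (orderOf e).Coprime 2}, zpowers (e : G) :=
    (closure_le _).2 fun e he => mem_iSup_of_mem (⟨e, he⟩ : {e : G // (orderOf e).Coprime 2}) (mem_zpowers e)
  refine (commutator_mono le_rfl hgen).trans (H34.Push.commutator_le_of_cover fun e => ?_)
  set Z := zpowers (e : G) with hZ
  have hZL : Z ≤ L := zpowers_le.2 (H22.mem_pResidual_of_coprime e.2)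
  obtain ⟨k, hk⟩ := IsPGroup.iff_card.1 (H35.isPGroup_pCore 2 G)
  have hco : ⁅⁅Q, Z⁆, Z⁆ = ⁅Q, Z⁆ := H20.commutator_commutator_eq le_normalizer_of_normal
    (by rw [Nat.card_zpowers, hk]; exact e.2.pow_right k) (Or.inl inferInstance)
  rw [← hco, ← hco]
  refine le_trans (commutator_mono (commutator_mono (commutator_mono le_rfl hZL) le_rfl) le_rfl) ?_
  refine le_trans (commutator_mono (commutator_mono h1 hZL) le_rfl) ?_
  exact (commutator_mono h2 hZL).trans h3

/-- The case analysis on the components. -/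
theorem exists_case_facts (hc : Ctx T M) : Case T ∧ CoreFacts G := by
  obtain ⟨r, E, hcases, hoff⟩ := exists_case_offenders hc
  have hoffIn : OffIn T E := fun X hX => by
    haveI := hX.elem.1
    refine hoff X (fun a ha b hb => ?_) (fun a ha => by rw [hX.elem.2 a ha]; exact one_mem _) hX.exact_off.le
    rw [commutatorElement_eq_one_iff_mul_comm.2 (setLike_mul_comm ha hb)]
    exact one_mem _
  rcases hcases with ⟨F, iF, iF', n, h⟩ | ⟨n, h⟩
  · have co := hc.core h.toComps (H85.Push.genData hc h)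
    obtain ⟨R, hR, -⟩ := H85.Push.exists_rankSub hc h co ⟨0, h.pos⟩
    exact ⟨linCase hc h hoffIn, coreFacts hc co hR⟩
  · have co := hc.core h.toComps (H29.Push.genData hc h)
    obtain ⟨R, hR⟩ := H29.Push.exists_rankSub hc h co
    exact ⟨H29.OddPush.symCase hc h hoffIn, coreFacts hc co hR⟩

/-- The join of the images of `V` is normal. -/
theorem exists_of_ctx (hc : Ctx T M) (A : Subgroup (MulAut ↥(T : Subgroup G))) (hA : Odd (Nat.card A)) :
    ∃ U : Subgroup G, U ≠ ⊥ ∧ U.Normal ∧ U ≤ (T : Subgroup G) ∧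
      ∀ a ∈ A, ∀ x : ↥(T : Subgroup G), (x : G) ∈ U → ((a x : ↥(T : Subgroup G)) : G) ∈ U := by
  obtain ⟨hcase, hf⟩ := exists_case_facts hc
  haveI := OddPush.vee_normal (G := G)
  set U := ⨆ a : ↥A, img (a : MulAut ↥(T : Subgroup G)) with hU
  have hVU : vee 2 G ≤ U := by
    refine le_trans ?_ (le_iSup (fun a : ↥A => img (a : MulAut ↥(T : Subgroup G))) 1)
    exact img_one.ge
  have hUQ : U ≤ Cfsg.pCore 2 G := iSup_le fun a => img_le_core hc hcase hf A hA a.2
  have hUT : U ≤ (T : Subgroup G) := hUQ.trans (H72.pCore_le_sylow T)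
  refine ⟨U, fun h => ?_, ?_, hUT, fun a ha x hx => mem_of_moved_le ?_ x hx⟩
  · -- `V` is not trivial, as `T` is not normal
    have hV : vee 2 G = ⊥ := le_bot_iff.1 (h ▸ hVU)
    refine hc.hM.1 (top_le_iff.1 (le_trans ?_ hc.cee_le))
    intro g _
    refine mem_centralizer_iff.2 fun v hv => ?_
    rw [SetLike.mem_coe, hV, mem_bot] at hv
    rw [hv, one_mul, mul_one]
  · refine normalizer_eq_top_iff.1 (top_le_iff.1 ?_)
    rw [← H22.pResidual_sup_sylow T]
    refine sup_le (fun l hl => H74.mem_normalizer_of_conj_mem fun u hu => ?_)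
      (fun t ht => H74.mem_normalizer_of_conj_mem fun u hu => ?_)
    · have h1 : ⁅u, l⁆ ∈ U := hVU (hf.comm (commutator_mem_commutator (hUQ hu) hl))
      have h2 := mul_mem (inv_mem h1) hu
      rwa [show ⁅u, l⁆⁻¹ * u = l * u * l⁻¹ by rw [commutatorElement_def]; group] at h2
    · have hmap : U.map (MulAut.conj t).toMonoidHom ≤ U := by
        rw [hU, Subgroup.map_iSup]
        refine iSup_mono fun a => ?_
        rintro _ ⟨y, hy, rfl⟩
        exact (mem_normalizer_iff.1 (moved_normalized (a : MulAut ↥(T : Subgroup G)) T_le_normalizer_vee ht) _).1 hy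
      exact hmap ⟨u, hu, rfl⟩
  · -- `U` lies in the preimage of itself
    have hle : U ≤ ((U.subgroupOf (T : Subgroup G)).comap a.toMonoidHom).map (T : Subgroup G).subtype := by
      refine iSup_le fun b y hy => ?_
      obtain ⟨w, hw, rfl⟩ := mem_moved.1 hy
      refine ⟨(b : MulAut ↥(T : Subgroup G)) w, ?_, rfl⟩
      show ((a ((b : MulAut ↥(T : Subgroup G)) w) : ↥(T : Subgroup G)) : G) ∈ U
      exact le_iSup (fun c : ↥A => img (c : MulAut ↥(T : Subgroup G))) (⟨a, ha⟩ * b)
        (mem_moved.2 ⟨w, hw, rfl⟩)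
    intro g hg
    obtain ⟨x, hx, rfl⟩ := mem_moved.1 hg
    obtain ⟨y, hy, e⟩ := hle hx
    rw [show x = y from Subtype.ext e.symm]
    exact hy

/-- The theorem. -/
theorem exists_invariant_normal {G : Type u} [Group G] [Finite G]
    (hirr : ∀ S : Sylow 2 G, ∃! M : Subgroup G, IsCoatom M ∧ (S : Subgroup G) ≤ M)
    (hchar : centralizer (Cfsg.pCore 2 G : Set G) ≤ Cfsg.pCore 2 G) (S : Sylow 2 G)
    (A : Subgroup (MulAut ↥(S : Subgroup G))) (hA : Odd (Nat.card A)) :
    ∃ U : Subgroup G, U ≠ ⊥ ∧ U.Normal ∧ U ≤ (S : Subgroup G) ∧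
      ∀ a ∈ A, ∀ x : ↥(S : Subgroup G), (x : G) ∈ U → ((a x : ↥(S : Subgroup G)) : G) ∈ U := by
  have hS0 : (S : Subgroup G) ≠ ⊥ := by
    intro e
    have hQ : Cfsg.pCore 2 G = ⊥ := le_bot_iff.1 (e ▸ H72.pCore_le_sylow S)
    obtain ⟨M, ⟨hM, -⟩, -⟩ := hirr S
    refine hM.1 (top_le_iff.1 fun g _ => ?_)
    have hg : g ∈ centralizer (Cfsg.pCore 2 G : Set G) := mem_centralizer_iff.2 fun q hq => by
      rw [SetLike.mem_coe, hQ, mem_bot] at hq
      rw [hq, one_mul, mul_one]
    have := hchar hg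
    rw [hQ, mem_bot] at this
    rw [this]; exact one_mem _
  by_cases hn : (S : Subgroup G).Normal
  · exact ⟨(S : Subgroup G), hS0, hn, le_rfl, fun a _ x _ => (a x).2⟩
  by_cases hC : ∃ C : Subgroup G, C ≤ Cfsg.baumannSubgroupOf 2 (S : Subgroup G) ∧ C ≠ ⊥ ∧
      (C.subgroupOf (Cfsg.baumannSubgroupOf 2 (S : Subgroup G))).Characteristic ∧ C.Normal
  · obtain ⟨C, hCB, hne, hCc, hCn⟩ := hC
    exact ⟨C, hne, hCn, hCB.trans inf_le_left, fun a _ x hx =>
      mem_of_moved_le (moved_characteristic a inf_le_left (moved_baumann a) hCB hCc) x hx⟩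
  by_cases hz : (Cfsg.omegaOneCenter 2 (S : Subgroup G)).Normal
  · refine ⟨_, ?_, hz, (H34.Star.omega_le _).trans inf_le_left, fun a _ x hx =>
      mem_of_moved_le (moved_omegaCenter a).le x hx⟩
    obtain ⟨g, hg, hg1⟩ := (bot_or_exists_ne_one (S : Subgroup G)).resolve_left hS0
    haveI : Nontrivial ↥(S : Subgroup G) := ⟨⟨g, hg⟩, 1, fun e => hg1 (congrArg Subtype.val e)⟩
    haveI := S.2.center_nontrivial
    obtain ⟨k, hk⟩ := IsPGroup.iff_card.1 (S.2.to_subgroup (center ↥(S : Subgroup G)))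
    have hk0 : k ≠ 0 := fun e => by
      have h1 : 1 < Nat.card ↥(center ↥(S : Subgroup G)) := Finite.one_lt_card
      rw [hk, e, pow_zero] at h1
      exact lt_irrefl _ h1
    obtain ⟨c, hc⟩ := exists_prime_orderOf_dvd_card' 2 (hk ▸ dvd_pow_self 2 hk0 : 2 ∣ Nat.card ↥(center ↥(S : Subgroup G)))
    intro e
    have hmem : ((c : ↥(S : Subgroup G)) : G) ∈ Cfsg.omegaOneCenter 2 (S : Subgroup G) := by
      refine H74.mem_omegaOneCenter_iff.2 ⟨⟨(c : ↥(S : Subgroup G)).2, mem_centralizer_iff.2 fun s hs => ?_⟩, ?_⟩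
      · exact congrArg Subtype.val (mem_center_iff.1 c.2 ⟨s, hs⟩)
      · have h2 := pow_orderOf_eq_one c
        rw [hc] at h2
        exact congrArg (fun z : ↥(center ↥(S : Subgroup G)) => ((z : ↥(S : Subgroup G)) : G)) h2
    rw [e, mem_bot] at hmem
    have hc1 : c = 1 := Subtype.ext (Subtype.ext hmem)
    rw [hc1, orderOf_one] at hc
    omega
  have hmin : Cfsg.IsPMinimal 2 G := fun P => ⟨fun hP => hn (by
    obtain ⟨g, hg⟩ := MulAction.exists_smul_eq G P S
    have e : (S : Subgroup G) = (P : Subgroup G).map (MulAut.conj g).toMonoidHom := by rw [← hg]; rfl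
    rw [e]
    exact hP.map _ (MulAut.conj g).surjective), hirr P⟩
  obtain ⟨M, ⟨hM, hSM⟩, -⟩ := hirr S
  exact exists_of_ctx ⟨hmin, hchar, fun C h1 h2 h3 h4 => hC ⟨C, h1, h2, h3, h4⟩, hz, hM, hSM⟩ A hA

end Cfsg.Agent.H35.OddPush
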