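import Cfsg.Agent.H34.Push.Basic
import Cfsg.Agent.H22.PResidual
import Mathlib

/-!
Pushing up by odd automorphisms of the Sylow 2-subgroup: what the two kinds of components supply about the
exactly offending normal elementary abelian subgroups of the Sylow subgroup.
-/

set_option autoImplicit false
set_option linter.style.haveILetI false
set_option linter.unusedSectionVars false

open scoped commutatorElement

namespace Cfsg.Agent.H35.OddPush

open Subgroup
open Cfsg.Agent
open Cfsg.Agent.H34.Push (vee cee Ctx Comps)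

universe u

/-- The centraliser of `O²(G)`. -/
abbrev oddCent (G : Type u) [Group G] : Subgroup G :=
  centralizer ((Cfsg.pResidual 2 G : Subgroup G) : Set G)

variable {G : Type u} [Group G] [Finite G] {T : Sylow 2 G} {M : Subgroup G}

/-- A normal elementary abelian subgroup of `T`, moving `V` and offending exactly on it. -/
structure Nbr (T : Sylow 2 G) (X : Subgroup G) : Prop where
  le : X ≤ (T : Subgroup G)
  norm : (T : Subgroup G) ≤ normalizer (X : Set G)
  elem : Cfsg.IsElementaryAbelian 2 X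
  move : ¬ X ≤ cee 2 G
  exact_off : Nat.card ↥(vee 2 G) =
    (cee 2 G).relIndex X * Nat.card ↥(vee 2 G ⊓ centralizer (X : Set G))

/-- The subgroups in question lie in the join of the components. -/
def OffIn (T : Sylow 2 G) {r : ℕ} (E : Fin r → Subgroup G) : Prop :=
  ∀ X, Nbr T X → X ≤ ⨆ i, E i

/-- What the components supply. -/
structure Case (T : Sylow 2 G) : Prop where
  image : ∃ U₀ : Subgroup G, ∀ X, Nbr T X → X ⊔ Cfsg.pCore 2 G = U₀
  self_cent : ∀ X, Nbr T X → (T : Subgroup G) ⊓ centralizer (X : Set G) ≤ X ⊔ Cfsg.pCore 2 G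
  coord : ∀ X, Nbr T X → ∀ x ∈ X, ∀ x' ∈ X, ∀ v ∈ vee 2 G, ∀ v' ∈ vee 2 G, ⁅v, x⁆ ∈ oddCent G →
    ⁅v, x'⁆ * ⁅v', x⁆ ∈ oddCent G → ⁅v, x'⁆ ∈ oddCent G

/-- The elements moving `V` only by vectors centralised by `O²(G)`. -/
def smallMove (G : Type u) [Group G] : Subgroup G where
  carrier := {g | ∀ v ∈ vee 2 G, g * v * g⁻¹ * v⁻¹ ∈ vee 2 G ⊓ oddCent G}
  one_mem' := fun v _ => by simp
  mul_mem' := by
    intro a b ha hb v hv
    have h1 := hb v hv
    have hv' : b * v * b⁻¹ ∈ vee 2 G := by
      have := mul_mem h1.1 hv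
      rwa [inv_mul_cancel_right] at this
    have h2 := ha _ hv'
    rw [show a * b * v * (a * b)⁻¹ * v⁻¹ = (a * (b * v * b⁻¹) * a⁻¹ * (b * v * b⁻¹)⁻¹) * (b * v * b⁻¹ * v⁻¹) by group]
    exact mul_mem h2 h1
  inv_mem' := by
    intro a ha v hv
    have hn : a⁻¹ * v * a⁻¹⁻¹ ∈ vee 2 G := by
      haveI : (vee 2 G).Normal := H34.Star.omega_core_normal
      exact Normal.conj_mem inferInstance v hv a⁻¹
    have := inv_mem (ha _ hn)
    rwa [show (a * (a⁻¹ * v * a⁻¹⁻¹) * a⁻¹ * (a⁻¹ * v * a⁻¹⁻¹)⁻¹)⁻¹ = a⁻¹ * v * a⁻¹⁻¹ * v⁻¹ by group] at this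

theorem oddCent_normal : (oddCent G).Normal := by
  haveI : (Cfsg.pResidual 2 G).Normal := inferInstance
  exact normal_centralizer

theorem vee_normal : (vee 2 G).Normal := H34.Star.omega_core_normal

theorem smallMove_normal : (smallMove G).Normal := by
  haveI := vee_normal (G := G)
  haveI := oddCent_normal (G := G)
  refine ⟨fun g hg x v hv => ?_⟩
  have h := hg _ (Normal.conj_mem inferInstance v hv x⁻¹)
  have h' : x * (g * (x⁻¹ * v * x⁻¹⁻¹) * g⁻¹ * (x⁻¹ * v * x⁻¹⁻¹)⁻¹) * x⁻¹ ∈ vee 2 G ⊓ oddCent G :=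
    ⟨Normal.conj_mem inferInstance _ h.1 x, Normal.conj_mem inferInstance _ h.2 x⟩
  rwa [show x * (g * (x⁻¹ * v * x⁻¹⁻¹) * g⁻¹ * (x⁻¹ * v * x⁻¹⁻¹)⁻¹) * x⁻¹ =
    x * g * x⁻¹ * v * (x * g * x⁻¹)⁻¹ * v⁻¹ by group] at h'

/-- `O²(G)` lies in the join of the components. -/
theorem residual_le_star {r : ℕ} {E : Fin r → Subgroup G} (h : Comps T E) :
    Cfsg.pResidual 2 G ≤ ⨆ i, E i := by
  haveI : (cee 2 G).Normal := H34.Push.cee_normal
  haveI : (Cfsg.thompsonSubgroup 2 G).Normal :=
    haveI := H34.thompsonSubgroup_characteristic (p := 2) (G := G); inferInstance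
  haveI : (⨆ i, E i).Normal := h.sup ▸ sup_normal _ _
  refine H22.pResidual_le_of_isPGroup_quotient _ ?_
  have htop : (T : Subgroup G).map (QuotientGroup.mk' (⨆ i, E i)) = ⊤ := by
    rw [← map_top_of_surjective _ (QuotientGroup.mk'_surjective (⨆ i, E i)), ← h.top, Subgroup.map_sup,
      QuotientGroup.map_mk'_self, bot_sup_eq]
  exact ((T.2.map (QuotientGroup.mk' (⨆ i, E i))).to_le htop.ge).of_equiv Subgroup.topEquiv

theorem star_cent_le_oddCent {r : ℕ} {E : Fin r → Subgroup G} (h : Comps T E) :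
    centralizer ((⨆ i, E i : Subgroup G) : Set G) ≤ oddCent G :=
  centralizer_le (SetLike.coe_subset_coe.2 (residual_le_star h))

/-- An element of `T` that moves `V` only by vectors centralised by `O²(G)` lies in `O₂(G)`. -/
theorem mem_core_of_small (hc : Ctx T M) {t : G} (ht : t ∈ (T : Subgroup G))
    (h : ∀ v ∈ vee 2 G, ⁅v, t⁆ ∈ oddCent G) : t ∈ Cfsg.pCore 2 G := by
  haveI := vee_normal (G := G)
  haveI := smallMove_normal (G := G)
  haveI : (cee 2 G).Normal := H34.Push.cee_normal
  set L := Cfsg.pResidual 2 G with hL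
  have htK : t ∈ smallMove G := fun v hv => by
    refine mem_inf.2 ⟨(vee 2 G).mul_mem (Normal.conj_mem inferInstance v hv t) ((vee 2 G).inv_mem hv), ?_⟩
    have := (oddCent G).inv_mem (h v hv)
    rwa [commutatorElement_inv, commutatorElement_def] at this
  have hKM : smallMove G ≤ M := by
    by_contra hnot
    have htop : smallMove G ⊔ (T : Subgroup G) = ⊤ := by
      by_contra hne
      exact hnot (le_sup_left.trans (hc.le_max le_sup_right hne))
    have hLK : L ≤ smallMove G := by
      refine H22.pResidual_le_of_isPGroup_quotient _ ?_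
      have hmap : (T : Subgroup G).map (QuotientGroup.mk' (smallMove G)) = ⊤ := by
        rw [← map_top_of_surjective _ (QuotientGroup.mk'_surjective (smallMove G)), ← htop, Subgroup.map_sup,
          QuotientGroup.map_mk'_self, bot_sup_eq]
      exact ((T.2.map (QuotientGroup.mk' (smallMove G))).to_le hmap.ge).of_equiv Subgroup.topEquiv
    -- odd elements of `O²(G)` then centralise `V`
    have hLC : L ≤ cee 2 G := by
      rw [hL, Cfsg.pResidual, closure_le]
      intro e he
      have heL : e ∈ L := H22.mem_pResidual_of_coprime he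
      refine H72.coprime_mem_centralizer_of_series'
        (H34.IsPGroup_of_isElementaryAbelian (H34.Push.vee_elementary (G := G) (p := 2)))
        (normalizer_eq_top_iff.2 (vee_normal (G := G)) ▸ mem_top e) he
        (N := vee 2 G ⊓ oddCent G) (fun v hv => by
          rw [commutatorElement_def]; exact hLK heL v hv) ?_
      exact mem_centralizer_iff.2 fun z hz => (mem_centralizer_iff.1 hz.2 e heL).symm
    refine hc.hM.1 (top_le_iff.1 ?_)
    rw [← H22.pResidual_sup_sylow T]
    exact sup_le (hLC.trans hc.cee_le) hc.hTM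
  exact H34.Star.inf_le_pCore hc.pmin hc.hM hc.hTM hKM ⟨ht, htK⟩

end Cfsg.Agent.H35.OddPush
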